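import Mathlib
import Cfsg.Prelude.Def_LieExceptional

set_option autoImplicit false
open Cfsg

namespace Cfsg.Agent.Lib.Helper4.SzDeg

/-! ## the group-theoretic axioms (proved for `Cfsg.Sz F m` in [M], [K]) -/
structure Ax (G Ω : Type*) [Group G] [Fintype G] [MulAction G Ω] [Fintype Ω] (q r : ℕ) (a b : Ω)
    (Q Z H Ap Am : Subgroup G) : Prop where
  hr : r ^ 2 = 2 * q
  hr4 : 4 ∣ r
  hr0 : 0 < r
  zas : IsZassenhausGroup G Ω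
  simple : IsSimpleGroup G
  hab : a ≠ b
  cardΩ : Fintype.card Ω = q ^ 2 + 1
  cardG : Nat.card G = q ^ 2 * (q ^ 2 + 1) * (q - 1)
  hH : H = MulAction.stabilizer G a ⊓ MulAction.stabilizer G b
  cardH : Nat.card H = q - 1
  hQa : Q ≤ MulAction.stabilizer G a
  cardQ : Nat.card Q = q ^ 2
  hQ2 : IsPGroup 2 Q
  hQfix : ∀ u ∈ Q, u ≠ 1 → ∀ c : Ω, u • c = c → c = a
  hQn : ∀ x ∈ MulAction.stabilizer G a, ∀ u ∈ Q, x * u * x⁻¹ ∈ Q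
  hBab : ∀ x ∈ MulAction.stabilizer G a, ∀ y ∈ MulAction.stabilizer G a, x * y * x⁻¹ * y⁻¹ ∈ Q
  hZ : Z = ⁅Q, Q⁆
  cardZ : Nat.card Z = q
  hfpf : ∀ h ∈ H, h ≠ 1 → ∀ k ∈ Q, h * k = k * h → k = 1
  classes : q + 3 ≤ Nat.card (ConjClasses G)
  cardAp : Nat.card Ap = q + r + 1
  cardAm : Nat.card Am = q + 1 - r
  commAp : ∀ x ∈ Ap, ∀ y ∈ Ap, x * y = y * x
  commAm : ∀ x ∈ Am, ∀ y ∈ Am, x * y = y * x
  centAp : ∀ x ∈ Ap, x ≠ 1 → ∀ g : G, g * x = x * g → g ∈ Ap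
  centAm : ∀ x ∈ Am, x ≠ 1 → ∀ g : G, g * x = x * g → g ∈ Am
  normAp : Nat.card (Subgroup.normalizer (Ap : Set G)) = 4 * (q + r + 1)
  normAm : Nat.card (Subgroup.normalizer (Am : Set G)) = 4 * (q + 1 - r)

end Cfsg.Agent.Lib.Helper4.SzDeg
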