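import Cfsg.Agent.Lib.Helper4.SzDeg.IntegB

/-! [C] the combinatorial core of S4775. -/

set_option autoImplicit false

namespace Cfsg.Agent.Lib.Helper4.SzDeg

theorem ar_cop_pm {q r : ℕ} (hr : r ^ 2 = 2 * q) (hr4 : 4 ∣ r) (hr0 : 0 < r) :
    Nat.Coprime (q + r + 1) (q + 1 - r) := by
  have hrq := ar_rq hr hr4 hr0
  have hev := ar_even hr hr4
  have hq8 := ar_q8 hr hr4 hr0
  have hprod := ar_prod hr hr4 hr0
  set g := Nat.gcd (q + r + 1) (q + 1 - r) with hg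
  have h1 : g ∣ q + r + 1 := Nat.gcd_dvd_left _ _
  have h2 : g ∣ q + 1 - r := Nat.gcd_dvd_right _ _
  have h3 : g ∣ 2 * r := by
    have : q + r + 1 = (q + 1 - r) + 2 * r := by omega
    rw [this] at h1
    exact (Nat.dvd_add_right h2).1 h1
  have h4 : g ∣ 8 * q := by
    have : 8 * q = (2 * r) * (2 * r) := by nlinarith
    rw [this]
    exact Dvd.dvd.mul_right h3 _
  have h5 : g ∣ q ^ 2 + 1 := by
    rw [← hprod]; exact Dvd.dvd.mul_right h1 _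
  have h6 : Nat.Coprime (q ^ 2 + 1) (8 * q) := by
    apply Nat.Coprime.mul_right
    · have : Nat.Coprime (q ^ 2 + 1) 2 := by
        rw [Nat.coprime_two_right]
        obtain ⟨k, hk⟩ := hev
        exact ⟨2 * k ^ 2, by rw [hk]; ring⟩
      have h8 : (8 : ℕ) = 2 ^ 3 := by norm_num
      rw [h8]
      exact Nat.Coprime.pow_right 3 this
    · have : q ^ 2 + 1 = 1 + q * q := by ring
      rw [this]
      simp
  exact Nat.eq_one_of_dvd_coprimes h6 h5 h4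


set_option maxHeartbeats 1600000 in
theorem core {ι : Type*} [Fintype ι] [DecidableEq ι] (q r : ℕ) (deg a L : ι → ℕ) (Np Nm : Finset ι)
    (o st : ι) (hr : r ^ 2 = 2 * q) (hr4 : 4 ∣ r) (hr0 : 0 < r)
    (hcard : q + 3 ≤ Fintype.card ι) (hdeg0 : ∀ χ, 0 < deg χ)
    (hsq : ∑ χ, deg χ ^ 2 = q ^ 2 * (q ^ 2 + 1) * (q - 1))
    (hLL : ∑ χ, L χ ^ 2 = q * (q - 1) ^ 2)
    (hLd : ∑ χ, L χ * deg χ = (q - 1) ^ 2 * (q ^ 2 + 1))
    (had : ∑ χ, a χ * deg χ = (q - 1) * (q ^ 2 + 1))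
    (host : o ≠ st) (ho : deg o = 1 ∧ a o = 1 ∧ L o = 0)
    (hst : deg st = q ^ 2 ∧ a st = 1 ∧ L st = q - 1)
    (hP : ∀ χ, a χ ≠ 0 → χ = o ∨ χ = st ∨
      (deg χ = q ^ 2 + 1 ∧ a χ = 2 ∧ L χ = q - 1 ∧ χ ∉ Np ∧ χ ∉ Nm))
    (hR : ∀ χ, a χ = 0 → ∃ b d : ℕ, deg χ = (q - 1) * d ∧ L χ = (q - 1) * b ∧ Even (b + d))
    (hNp : 4 * Np.card ≤ (q + r + 1) + 15)
    (hNp' : 4 * Np.card = (q + r + 1) + 15 → ∀ χ ∈ Np, Nat.Coprime (deg χ) (q + r + 1))
    (hNp'' : ∀ χ, χ ∉ Np → (q + r + 1) ∣ deg χ) (hoNp : o ∈ Np) (hstNp : st ∈ Np)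
    (hNm : 4 * Nm.card ≤ (q + 1 - r) + 15)
    (hNm' : 4 * Nm.card = (q + 1 - r) + 15 → ∀ χ ∈ Nm, Nat.Coprime (deg χ) (q + 1 - r))
    (hNm'' : ∀ χ, χ ∉ Nm → (q + 1 - r) ∣ deg χ) (hoNm : o ∈ Nm) (hstNm : st ∈ Nm) :
    (∃ χ, deg χ = q ^ 2 + 1) ∧ (∃ χ, 2 * (q - 1) ∣ deg χ) ∧
    (∃ χ, (q + r + 1) * (q - 1) ∣ deg χ) ∧ (∃ χ, (q + 1 - r) * (q - 1) ∣ deg χ) ∧
    ∀ χ, 2 ∣ deg χ → Nat.Coprime (deg χ) (q ^ 2 + 1) := by
  have hq8 := ar_q8 hr hr4 hr0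
  have hrq := ar_rq hr hr4 hr0
  have hev := ar_even hr hr4
  have hprod := ar_prod hr hr4 hr0
  have hcpm := ar_cop_pm hr hr4 hr0
  have hcop := ar_cop hev (by omega : 1 ≤ q)
  obtain ⟨t, ht⟩ : ∃ t, q = t + 1 := ⟨q - 1, by omega⟩
  have hq1 : q - 1 = t := by omega
  rw [hq1] at hcop hsq hLL hLd had hst hP hR ⊢
  have hcopT : Nat.Coprime (q ^ 2 + 1) t := Nat.Coprime.coprime_mul_left_right hcop
  have hcpT : Nat.Coprime (q + r + 1) t := Nat.Coprime.coprime_dvd_left ⟨_, hprod.symm⟩ hcopT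
  have hcmT : Nat.Coprime (q + 1 - r) t :=
    Nat.Coprime.coprime_dvd_left ⟨_, by rw [mul_comm]; exact hprod.symm⟩ hcopT
  have htodd : Odd t := by
    obtain ⟨k, hk⟩ := hev
    exact ⟨k - 1, by omega⟩
  -- the sets
  set RR := Finset.univ.filter (fun χ => a χ = 0) with hRR
  set XX := Finset.univ.filter (fun χ => a χ ≠ 0 ∧ χ ≠ o ∧ χ ≠ st) with hXX
  have hsplit : ∀ {M : Type} [AddCommMonoid M] (f : ι → M),
      ∑ χ, f χ = f o + (f st + ∑ χ ∈ XX, f χ) + ∑ χ ∈ RR, f χ := by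
    intro M _ f
    rw [← Finset.sum_filter_not_add_sum_filter Finset.univ (fun χ => a χ = 0) f]
    congr 1
    have : Finset.univ.filter (fun χ => ¬ a χ = 0) = insert o (insert st XX) := by
      ext χ
      simp only [Finset.mem_filter, Finset.mem_univ, true_and, Finset.mem_insert, hXX]
      constructor
      · intro h
        by_cases h1 : χ = o
        · exact Or.inl h1
        · by_cases h2 : χ = st
          · exact Or.inr (Or.inl h2)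
          · exact Or.inr (Or.inr ⟨h, h1, h2⟩)
      · rintro (h | h | h)
        · rw [h, ho.2.1]; omega
        · rw [h, hst.2.1]; omega
        · exact h.1
    rw [this, Finset.sum_insert, Finset.sum_insert]
    · simp [hXX]
    · simp [hXX, host]
  have hXXp : ∀ χ ∈ XX, deg χ = q ^ 2 + 1 ∧ a χ = 2 ∧ L χ = t ∧ χ ∉ Np ∧ χ ∉ Nm := by
    intro χ hχ
    obtain ⟨-, h1, h2, h3⟩ := Finset.mem_filter.1 hχ
    rcases hP χ h1 with h | h | h
    · exact absurd h h2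
    · exact absurd h h3
    · exact h
  have hRRa : ∀ χ ∈ RR, a χ = 0 := fun χ hχ => (Finset.mem_filter.1 hχ).2
  set x := XX.card with hx
  -- 2 x = q - 2
  have hx2 : t = 2 * x + 1 := by
    have h := hsplit (fun χ => a χ * deg χ)
    have e1 : ∑ χ ∈ XX, a χ * deg χ = x * (2 * (q ^ 2 + 1)) := by
      rw [Finset.sum_congr rfl (g := fun _ => 2 * (q ^ 2 + 1))
        (fun χ hχ => by rw [(hXXp χ hχ).1, (hXXp χ hχ).2.1]), Finset.sum_const, smul_eq_mul]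
    have e2 : ∑ χ ∈ RR, a χ * deg χ = 0 :=
      Finset.sum_eq_zero (fun χ hχ => by rw [hRRa χ hχ, zero_mul])
    rw [had, ho.1, ho.2.1, hst.1, hst.2.1, e1, e2] at h
    have h2 : t * (q ^ 2 + 1) = (2 * x + 1) * (q ^ 2 + 1) := by rw [h]; ring
    exact Nat.eq_of_mul_eq_mul_right (by positivity) h2
  have hcardR : x + 3 ≤ RR.card := by
    have h := hsplit (fun _ => 1)
    simp only [Finset.sum_const, smul_eq_mul, mul_one, Finset.card_univ] at h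
    omega
  -- b and d
  have hR' : ∀ χ, ∃ b d : ℕ, a χ = 0 → deg χ = t * d ∧ L χ = t * b ∧ Even (b + d) := by
    intro χ
    by_cases h : a χ = 0
    · obtain ⟨b, d, h1⟩ := hR χ h
      exact ⟨b, d, fun _ => h1⟩
    · exact ⟨0, 0, fun h' => absurd h' h⟩
  choose bF dF hbd using hR'
  have hbd' : ∀ χ ∈ RR, deg χ = t * dF χ ∧ L χ = t * bF χ ∧ Even (bF χ + dF χ) :=
    fun χ hχ => hbd χ (hRRa χ hχ)
  have ht0 : 0 < t := by omega
  have hsumb : ∑ χ ∈ RR, bF χ ^ 2 = x + 1 := by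
    have h := hsplit (fun χ => L χ ^ 2)
    have e1 : ∑ χ ∈ XX, L χ ^ 2 = x * t ^ 2 := by
      rw [Finset.sum_congr rfl (g := fun _ => t ^ 2) (fun χ hχ => by rw [(hXXp χ hχ).2.2.1]),
        Finset.sum_const, smul_eq_mul]
    have e2 : ∑ χ ∈ RR, L χ ^ 2 = t ^ 2 * ∑ χ ∈ RR, bF χ ^ 2 := by
      rw [Finset.mul_sum]
      exact Finset.sum_congr rfl (fun χ hχ => by rw [(hbd' χ hχ).2.1]; ring)
    rw [hLL, ho.2.2, hst.2.2, e1, e2] at h
    have h2 : t ^ 2 * (∑ χ ∈ RR, bF χ ^ 2) = t ^ 2 * (x + 1) := by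
      have h3 : q * t ^ 2 = t ^ 2 * (2 * x + 2) := by rw [ht, hx2]; ring
      rw [h3] at h
      have h4 : (t ^ 2 + x * t ^ 2) + t ^ 2 * (∑ χ ∈ RR, bF χ ^ 2)
          = (t ^ 2 + x * t ^ 2) + t ^ 2 * (x + 1) := by
        calc _ = 0 ^ 2 + (t ^ 2 + x * t ^ 2) + t ^ 2 * (∑ χ ∈ RR, bF χ ^ 2) := by ring
          _ = t ^ 2 * (2 * x + 2) := h.symm
          _ = _ := by ring
      exact Nat.add_left_cancel h4
    exact Nat.eq_of_mul_eq_mul_left (by positivity) h2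
  set R1 := RR.filter (fun χ => bF χ ≠ 0) with hR1
  set R0 := RR.filter (fun χ => bF χ = 0) with hR0
  have hR01 : R0.card + R1.card = RR.card := Finset.card_filter_add_card_filter_not _
  have hsumb1 : ∑ χ ∈ R1, bF χ ^ 2 = x + 1 := by
    rw [← hsumb, hR1, Finset.sum_filter]
    refine Finset.sum_congr rfl fun χ _ => ?_
    split_ifs with h
    · rfl
    · rw [not_not.1 h]; rfl
  have hb1 : ∀ χ ∈ R1, 1 ≤ bF χ ^ 2 := by
    intro χ hχ
    have := (Finset.mem_filter.1 hχ).2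
    exact Nat.one_le_pow _ _ (Nat.pos_of_ne_zero this)
  have hR1card : R1.card ≤ x + 1 := by
    rw [← hsumb1, Finset.card_eq_sum_ones]
    exact Finset.sum_le_sum hb1
  -- the norm identity
  have hqz : (q : ℤ) = t + 1 := by exact_mod_cast ht
  have htz : (t : ℤ) = 2 * x + 1 := by exact_mod_cast hx2
  have hnorm : ∑ χ ∈ RR, ((deg χ : ℤ) - t * L χ) ^ 2 = (q : ℤ) * t ^ 3 := by
    have hE : ∑ χ, ((deg χ : ℤ) - t * L χ) ^ 2 = (∑ χ, (deg χ : ℤ) ^ 2)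
        - 2 * t * (∑ χ, (L χ : ℤ) * deg χ) + t ^ 2 * ∑ χ, (L χ : ℤ) ^ 2 := by
      rw [Finset.mul_sum, Finset.mul_sum, ← Finset.sum_sub_distrib, ← Finset.sum_add_distrib]
      exact Finset.sum_congr rfl fun χ _ => by ring
    have z1 : ∑ χ, (deg χ : ℤ) ^ 2 = (q : ℤ) ^ 2 * ((q : ℤ) ^ 2 + 1) * t := by exact_mod_cast hsq
    have z2 : ∑ χ, (L χ : ℤ) * deg χ = (t : ℤ) ^ 2 * ((q : ℤ) ^ 2 + 1) := by exact_mod_cast hLd
    have z3 : ∑ χ, (L χ : ℤ) ^ 2 = (q : ℤ) * t ^ 2 := by exact_mod_cast hLL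
    have h := hsplit (fun χ => ((deg χ : ℤ) - t * L χ) ^ 2)
    have e1 : ∑ χ ∈ XX, ((deg χ : ℤ) - t * L χ) ^ 2 = x * (((q : ℤ) ^ 2 + 1) - t * t) ^ 2 := by
      rw [Finset.sum_congr rfl (g := fun _ => (((q : ℤ) ^ 2 + 1) - t * t) ^ 2)
        (fun χ hχ => by rw [(hXXp χ hχ).1, (hXXp χ hχ).2.2.1]; push_cast; ring),
        Finset.sum_const, nsmul_eq_mul]
    rw [hE, z1, z2, z3, e1, ho.1, ho.2.2, hst.1, hst.2.2] at h
    push_cast at h
    rw [hqz] at h ⊢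
    linear_combination (-1 : ℤ) * h + 2 * ((t : ℤ) + 1) ^ 2 * htz
  have hd0 : ∀ χ ∈ R0, dF χ ^ 2 ≤ q * t := by
    intro χ hχ
    obtain ⟨hχR, hb0⟩ := Finset.mem_filter.1 hχ
    have h1 := Finset.single_le_sum (f := fun χ => ((deg χ : ℤ) - t * L χ) ^ 2)
      (fun i _ => sq_nonneg _) hχR
    rw [hnorm] at h1
    rw [(hbd' χ hχR).1, (hbd' χ hχR).2.1, hb0] at h1
    push_cast at h1
    have h2 : (t : ℤ) ^ 2 * ((dF χ : ℤ) ^ 2) ≤ (t : ℤ) ^ 2 * (q * t) :=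
      le_trans (le_of_eq (by ring)) (le_trans h1 (le_of_eq (by ring)))
    have h3 : ((dF χ : ℤ) ^ 2) ≤ (q * t) := le_of_mul_le_mul_left h2 (by positivity)
    exact_mod_cast h3
  have hkey : ∀ n : ℕ, Odd n → Nat.Coprime n t → q + 2 ≤ 2 * n → ∀ χ ∈ R0, ¬ n ∣ deg χ := by
    intro n hn hnt hn2 χ hχ hdvd
    obtain ⟨hχR, hb0⟩ := Finset.mem_filter.1 hχ
    obtain ⟨e1, e2, e3⟩ := hbd' χ hχR
    rw [hb0, zero_add] at e3
    rw [e1] at hdvd
    have h1 : n ∣ dF χ := hnt.dvd_of_dvd_mul_left hdvd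
    have h2 : 2 * n ∣ dF χ :=
      Nat.Coprime.mul_dvd_of_dvd_of_dvd (Nat.coprime_two_left.2 hn) e3.two_dvd h1
    have hd0' : 0 < dF χ := by
      have := hdeg0 χ
      rw [e1] at this
      exact Nat.pos_of_ne_zero (by rintro h; simp [h] at this)
    have h3 := Nat.le_of_dvd hd0' h2
    have h4 := hd0 χ hχ
    have h5 : (q + 2) ^ 2 ≤ dF χ ^ 2 := Nat.pow_le_pow_left (le_trans hn2 h3) 2
    have h6 : q * t ≤ q * q := Nat.mul_le_mul_left _ (by omega)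
    have h7 : (q + 2) ^ 2 = q * q + 4 * q + 4 := by ring
    omega
  obtain ⟨s4, hs4⟩ := hr4
  obtain ⟨q2, hq2⟩ := hev
  have hoddP : Odd (q + r + 1) := ⟨q2 + 2 * s4, by omega⟩
  have hoddM : Odd (q + 1 - r) := ⟨q2 - 2 * s4, by omega⟩
  have hR0p : ∀ χ ∈ R0, χ ∈ Np := by
    intro χ hχ
    by_contra h
    exact hkey _ hoddP hcpT (by omega) χ hχ (hNp'' χ h)
  have hR0m : ∀ χ ∈ R0, χ ∈ Nm := by
    intro χ hχ
    by_contra h
    exact hkey _ hoddM hcmT (by omega) χ hχ (hNm'' χ h)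
  have hcover : ∀ χ ∈ RR, χ ∈ Np ∨ χ ∈ Nm := by
    intro χ hχ
    by_contra h
    rw [not_or] at h
    have h1 := hNp'' χ h.1
    have h2 := hNm'' χ h.2
    have h3 : t ∣ deg χ := ⟨_, (hbd' χ hχ).1⟩
    have h4 : (q + r + 1) * (q + 1 - r) ∣ deg χ := hcpm.mul_dvd_of_dvd_of_dvd h1 h2
    rw [hprod] at h4
    have h5 : (q ^ 2 + 1) * t ∣ deg χ := hcopT.mul_dvd_of_dvd_of_dvd h4 h3
    have h6 := Nat.le_of_dvd (hdeg0 χ) h5
    have h7 : deg χ ^ 2 ≤ q ^ 2 * (q ^ 2 + 1) * t := by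
      rw [← hsq]
      exact Finset.single_le_sum (f := fun χ => deg χ ^ 2) (fun _ _ => Nat.zero_le _)
        (Finset.mem_univ χ)
    have h8 : ((q ^ 2 + 1) * t) ^ 2 ≤ q ^ 2 * (q ^ 2 + 1) * t :=
      le_trans (Nat.pow_le_pow_left h6 2) h7
    have h9 : ((q ^ 2 + 1) * t) * ((q ^ 2 + 1) * t) ≤ q ^ 2 * ((q ^ 2 + 1) * t) := by
      calc _ = ((q ^ 2 + 1) * t) ^ 2 := by ring
        _ ≤ _ := h8
        _ = _ := by ring
    have h10 : (q ^ 2 + 1) * t ≤ q ^ 2 := Nat.le_of_mul_le_mul_right h9 (by positivity)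
    have h11 : (q ^ 2 + 1) * 1 ≤ (q ^ 2 + 1) * t := Nat.mul_le_mul_left _ ht0
    omega
  set Np1 := RR.filter (fun χ => χ ∈ Np) with hNp1d
  set Nm1 := RR.filter (fun χ => χ ∈ Nm) with hNm1d
  have hoR : o ∉ RR := fun h => by have := hRRa o h; rw [ho.2.1] at this; omega
  have hstR : st ∉ RR := fun h => by have := hRRa st h; rw [hst.2.1] at this; omega
  have hsub2 : ∀ (N : Finset ι), o ∈ N → st ∈ N → (RR.filter (fun χ => χ ∈ N)).card + 2 ≤ N.card := by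
    intro N h1 h2
    have hsub : insert o (insert st (RR.filter (fun χ => χ ∈ N))) ⊆ N := by
      intro χ hχ
      simp only [Finset.mem_insert] at hχ
      rcases hχ with h | h | h
      · rw [h]; exact h1
      · rw [h]; exact h2
      · exact (Finset.mem_filter.1 h).2
    have hc := Finset.card_le_card hsub
    rw [Finset.card_insert_of_notMem, Finset.card_insert_of_notMem] at hc
    · omega
    · intro h; exact hstR (Finset.mem_filter.1 h).1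
    · intro h
      rcases Finset.mem_insert.1 h with h | h
      · exact host h
      · exact hoR (Finset.mem_filter.1 h).1
  have hNp1 : Np1.card + 2 ≤ Np.card := hsub2 Np hoNp hstNp
  have hNm1 : Nm1.card + 2 ≤ Nm.card := hsub2 Nm hoNm hstNm
  have hunion : RR ⊆ Np1 ∪ Nm1 := by
    intro χ hχ
    rcases hcover χ hχ with h | h
    · exact Finset.mem_union_left _ (Finset.mem_filter.2 ⟨hχ, h⟩)
    · exact Finset.mem_union_right _ (Finset.mem_filter.2 ⟨hχ, h⟩)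
  have hinter : R0 ⊆ Np1 ∩ Nm1 := by
    intro χ hχ
    have hχR := (Finset.mem_filter.1 hχ).1
    exact Finset.mem_inter.2 ⟨Finset.mem_filter.2 ⟨hχR, hR0p χ hχ⟩,
      Finset.mem_filter.2 ⟨hχR, hR0m χ hχ⟩⟩
  have hcount : RR.card + R0.card ≤ Np1.card + Nm1.card := by
    have := Finset.card_union_add_card_inter Np1 Nm1
    have h1 := Finset.card_le_card hunion
    have h2 := Finset.card_le_card hinter
    omega
  have hfin : RR.card = x + 3 ∧ R0.card = 2 ∧ R1.card = x + 1 ∧ 4 * Np.card = q + r + 1 + 15 ∧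
      4 * Nm.card = q + 1 - r + 15 := by
    omega
  obtain ⟨f1, f2, f3, f4, f5⟩ := hfin
  have hbone : ∀ χ ∈ R1, bF χ = 1 := by
    have h1 : ∑ χ ∈ R1, 1 = ∑ χ ∈ R1, bF χ ^ 2 := by
      rw [hsumb1, ← Finset.card_eq_sum_ones]; omega
    have h2 := (Finset.sum_eq_sum_iff_of_le hb1).1 h1
    intro χ hχ
    have h3 : bF χ ^ 2 = 1 := (h2 χ hχ).symm
    rcases pow_eq_one_iff.1 h3 with h | h
    · exact h
    · omega
  refine ⟨?_, ?_, ?_, ?_, ?_⟩
  · have : 0 < XX.card := by omega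
    obtain ⟨χ, hχ⟩ := Finset.card_pos.1 this
    exact ⟨χ, (hXXp χ hχ).1⟩
  · have : 0 < R0.card := by omega
    obtain ⟨χ, hχ⟩ := Finset.card_pos.1 this
    obtain ⟨hχR, hb0⟩ := Finset.mem_filter.1 hχ
    obtain ⟨e1, e2, e3⟩ := hbd' χ hχR
    rw [hb0, zero_add] at e3
    obtain ⟨k, hk⟩ := e3.two_dvd
    exact ⟨χ, ⟨k, by rw [e1, hk]; ring⟩⟩
  · have hlt : Np1.card < RR.card := by omega
    obtain ⟨χ, hχ, hχ'⟩ : ∃ χ ∈ RR, χ ∉ Np1 := by
      by_contra h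
      push Not at h
      exact absurd (Finset.card_le_card (fun χ hχ => h χ hχ)) (by omega)
    have h1 : χ ∉ Np := fun h => hχ' (Finset.mem_filter.2 ⟨hχ, h⟩)
    exact ⟨χ, hcpT.mul_dvd_of_dvd_of_dvd (hNp'' χ h1) ⟨_, (hbd' χ hχ).1⟩⟩
  · have hlt : Nm1.card < RR.card := by omega
    obtain ⟨χ, hχ, hχ'⟩ : ∃ χ ∈ RR, χ ∉ Nm1 := by
      by_contra h
      push Not at h
      exact absurd (Finset.card_le_card (fun χ hχ => h χ hχ)) (by omega)
    have h1 : χ ∉ Nm := fun h => hχ' (Finset.mem_filter.2 ⟨hχ, h⟩)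
    exact ⟨χ, hcmT.mul_dvd_of_dvd_of_dvd (hNm'' χ h1) ⟨_, (hbd' χ hχ).1⟩⟩
  · intro χ h2
    by_cases ha : a χ = 0
    · have hχR : χ ∈ RR := Finset.mem_filter.2 ⟨Finset.mem_univ _, ha⟩
      obtain ⟨e1, e2, e3⟩ := hbd' χ hχR
      by_cases hb : bF χ = 0
      · have hχ0 : χ ∈ R0 := Finset.mem_filter.2 ⟨hχR, hb⟩
        rw [← hprod]
        exact Nat.Coprime.mul_right (hNp' f4 χ (hR0p χ hχ0)) (hNm' f5 χ (hR0m χ hχ0))
      · exfalso
        have hχ1 : χ ∈ R1 := Finset.mem_filter.2 ⟨hχR, hb⟩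
        rw [hbone χ hχ1] at e3
        have hdodd : Odd (dF χ) := by
          rcases Nat.even_or_odd (dF χ) with h | h
          · exfalso
            have : Odd (1 + dF χ) := Even.one_add h
            exact (Nat.not_even_iff_odd.2 this) e3
          · exact h
        have : Odd (deg χ) := by rw [e1]; exact htodd.mul hdodd
        exact (Nat.not_even_iff_odd.2 this) (even_iff_two_dvd.2 h2)
    · rcases hP χ ha with h | h | h
      · rw [h, ho.1] at h2; omega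
      · rw [h, hst.1]
        have : q ^ 2 + 1 = 1 + q ^ 2 := by ring
        rw [this]; simp
      · exfalso
        rw [h.1, hq2] at h2
        have : (2 * q2) ^ 2 + 1 = 2 * (2 * q2 ^ 2) + 1 := by ring
        omega

end Cfsg.Agent.Lib.Helper4.SzDeg
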