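import Mathlib
import Cfsg.Agent.Lib.Helper3.Induction
import Cfsg.Agent.Lib.Helper74.CharBasic
import Cfsg.Agent.Lib.Helper80.Linear
import Cfsg.Agent.Lib.Helper80.Constituent
import Cfsg.Agent.Lib.Helper80.CoreDvd
import Cfsg.Agent.Lib.Helper15.Gallagher
import Cfsg.Agent.S0171

set_option autoImplicit false
open Cfsg

/-! # S4775 farm, piece [D]: Frobenius group with a 2-group as kernel -/

namespace Cfsg.Agent.Lib.Helper4.SzDeg

open Cfsg.Agent.Lib
open scoped ComplexConjugate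

theorem sum_indFun_normal_D {B : Type*} [Group B] [Fintype B] (K : Subgroup B) (θ : K → ℂ)
    (W : Subgroup B) [hW : W.Normal] [Fintype W] :
    ∑ z : W, indFun K θ z = (K.index : ℂ) * ∑ z : W, extendByZero K θ z := by
  classical
  have hK : (Nat.card K : ℂ) ≠ 0 := by exact_mod_cast Nat.card_pos.ne'
  simp only [Helper3.indFun_apply]
  rw [← Finset.mul_sum, Finset.sum_comm]
  have : ∀ x : B, ∑ z : W, extendByZero K θ (x⁻¹ * z * x) = ∑ z : W, extendByZero K θ z := by
    intro x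
    refine Fintype.sum_equiv (MulAut.conjNormal x⁻¹ : MulAut W).toEquiv _ _ fun z => ?_
    simp
  simp only [this, Finset.sum_const, Finset.card_univ, nsmul_eq_mul]
  rw [← Nat.card_eq_fintype_card, ← K.card_mul_index]
  push_cast
  field_simp

theorem frob_irr_D {B : Type*} [Group B] [Fintype B] (K H : Subgroup B) [hKn : K.Normal]
    [Fintype K] [Fintype (⁅K, K⁆ : Subgroup B)]
    (hKH : K ⊓ H = ⊥) (hKH' : K ⊔ H = ⊤)
    (hfpf : ∀ h ∈ H, h ≠ 1 → ∀ k ∈ K, h * k = k * h → k = 1) (hK2 : IsPGroup 2 K)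
    (η : IrrCharacter B) (h0 : ∑ k : K, (η : B → ℂ) k = 0) :
    ∃ b d : ℕ, (η : B → ℂ) 1 = ((Nat.card H * d : ℕ) : ℂ) ∧
      ∑ z : (⁅K, K⁆ : Subgroup B), (η : B → ℂ) z =
        ((Nat.card (⁅K, K⁆ : Subgroup B) * (Nat.card H * b) : ℕ) : ℂ) ∧ Even (b + d) := by
  classical
  have hηc : IsCharacter B (η : B → ℂ) := Helper3.IsIrrCharacter.isCharacter η.2
  have hηK : IsCharacter K (fun k : K => (η : B → ℂ) k) := Helper3.IsCharacter.restrict hηc K
  have hne : (fun k : K => (η : B → ℂ) k) ≠ 0 := by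
    intro h
    have := congrFun h 1
    exact Helper3.IsIrrCharacter.apply_one_ne_zero η.2 this
  obtain ⟨θ, hθ⟩ := Helper80.exists_constituent hηK hne
  have hθ1 : (θ : K → ℂ) ≠ fun _ => 1 := by
    intro h
    apply hθ
    rw [h]
    unfold classInner
    simp [h0]
  have hirr := Cfsg.Agent.S0171.result K H hKH hKH' hfpf (θ : K → ℂ) θ.2 hθ1
  have hfrob : classInner (indFun K (θ : K → ℂ)) (η : B → ℂ) ≠ 0 := by
    rw [Helper3.frobenius_reciprocity K _ (Helper3.IsIrrCharacter.isClassFunction η.2),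
      ← Helper3.classInner_conj_symm]
    intro h
    exact hθ ((map_eq_zero _).1 h)
  have heq : (η : B → ℂ) = indFun K (θ : K → ℂ) := by
    by_contra hne'
    exact hfrob (Helper3.classInner_irr_ne hirr η.2 (fun h => hne' h.symm))
  have hidx : K.index = Nat.card H := by
    have hc : Subgroup.IsComplement' K H := by
      apply Subgroup.isComplement'_of_disjoint_and_mul_eq_univ (disjoint_iff.2 hKH)
      rw [← Subgroup.normal_mul, hKH']
      rfl
    exact hc.symm.index_eq_card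
  have hθc : IsCharacter K (θ : K → ℂ) := Helper3.IsIrrCharacter.isCharacter θ.2
  have hdeg : (θ : K → ℂ) 1 = (charDegree (θ : K → ℂ) : ℂ) := Helper80.char_one_eq_charDegree hθc
  set d := charDegree (θ : K → ℂ) with hd
  have hη1 : (η : B → ℂ) 1 = ((Nat.card H * d : ℕ) : ℂ) := by
    rw [heq, Helper3.indFun_one, hidx, hdeg]
    push_cast; ring
  -- the sum over the commutator subgroup
  let e : commutator K ≃* (⁅K, K⁆ : Subgroup B) :=
    ((commutator K).equivMapOfInjective K.subtype K.subtype_injective).trans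
      (MulEquiv.subgroupCongr (Subgroup.map_subtype_commutator K))
  have he : ∀ z : commutator K, ((e z : (⁅K, K⁆ : Subgroup B)) : B) = ((z : K) : B) := fun z => rfl
  have hsum1 : ∑ z : (⁅K, K⁆ : Subgroup B), (η : B → ℂ) z =
      (Nat.card H : ℂ) * ∑ z : commutator K, (θ : K → ℂ) z := by
    rw [heq, sum_indFun_normal_D K (θ : K → ℂ) ⁅K, K⁆, hidx]
    congr 1
    symm
    refine Fintype.sum_equiv e.toEquiv _ _ fun z => ?_
    show _ = extendByZero K (θ : K → ℂ) ((e z : (⁅K, K⁆ : Subgroup B)) : B)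
    rw [he, Helper3.extendByZero_apply_coe]
  have hcardW : Nat.card (⁅K, K⁆ : Subgroup B) = Nat.card (commutator K) :=
    (Nat.card_congr e.toEquiv).symm
  by_cases hd1 : d = 1
  · refine ⟨1, d, hη1, ?_, by rw [hd1]; decide⟩
    have h1 : (θ : K → ℂ) 1 = 1 := by rw [hdeg, hd1]; simp
    rw [hsum1]
    have : ∀ z : commutator K, (θ : K → ℂ) z = 1 := fun z => by
      rw [Helper80.char_eq_one_of_mem_commutator hθc h1 z.2, h1]
    simp only [this, Finset.sum_const, Finset.card_univ, nsmul_eq_mul, mul_one]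
    rw [hcardW, ← Nat.card_eq_fintype_card]
    push_cast; ring
  · refine ⟨0, d, hη1, ?_, ?_⟩
    · rw [hsum1]
      have : ∑ z : commutator K, (θ : K → ℂ) z = 0 := by
        by_contra hs
        apply hd1
        have h2 : classInner (fun n : commutator K => (θ : K → ℂ) n) (fun _ => 1) ≠ 0 := by
          intro h
          apply hs
          rw [Helper15.sum_restrict_eq (commutator K), h, mul_zero]
        have h3 := (Helper15.restrict_eq_of_inner_one_ne_zero (commutator K) θ.2 h2).2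
        have h4 : (θ : K → ℂ) 1 = 1 :=
          (Helper80.char_one_eq_one_iff θ).2 (fun n hn => h3 ⟨n, hn⟩)
        rw [hdeg] at h4
        exact_mod_cast h4
      rw [this]
      simp
    · rw [zero_add]
      have h5 : d ∣ Nat.card K := Helper80.charDegree_dvd_card θ
      obtain ⟨k, hk⟩ := IsPGroup.iff_card.1 hK2
      rw [hk] at h5
      obtain ⟨j, _, hj⟩ := (Nat.dvd_prime_pow Nat.prime_two).1 h5
      rcases j with _ | j
      · exact absurd (by simpa using hj) hd1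
      · rw [hj, pow_succ]
        exact even_two.mul_left _

theorem frob_char_D {B : Type*} [Group B] [Fintype B] (K H : Subgroup B) [hKn : K.Normal]
    [Fintype K] [Fintype (⁅K, K⁆ : Subgroup B)]
    (hKH : K ⊓ H = ⊥) (hKH' : K ⊔ H = ⊤)
    (hfpf : ∀ h ∈ H, h ≠ 1 → ∀ k ∈ K, h * k = k * h → k = 1) (hK2 : IsPGroup 2 K)
    (χ : B → ℂ) (hχ : IsCharacter B χ) (h0 : ∑ k : K, χ k = 0) :
    ∃ b d : ℕ, χ 1 = ((Nat.card H * d : ℕ) : ℂ) ∧
      ∑ z : (⁅K, K⁆ : Subgroup B), χ z =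
        ((Nat.card (⁅K, K⁆ : Subgroup B) * (Nat.card H * b) : ℕ) : ℂ) ∧ Even (b + d) := by
  classical
  obtain ⟨m, hm⟩ := Helper74.IsCharacter.exists_mult hχ
  have hval : ∀ x : B, χ x = ∑ ψ : IrrCharacter B, (m ψ : ℂ) * (ψ : B → ℂ) x := by
    intro x
    rw [hm]
    simp [Finset.sum_apply]
  -- the averages over `K` are natural numbers
  have hnat : ∀ ψ : IrrCharacter B, ∃ n : ℕ, ∑ k : K, (ψ : B → ℂ) k = (Nat.card K : ℂ) * n := by
    intro ψ
    obtain ⟨n, hn⟩ := Helper3.IsCharacter.classInner_eq_natCast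
      (Helper3.IsCharacter.restrict (Helper3.IsIrrCharacter.isCharacter ψ.2) K)
      (Helper3.IsIrrCharacter.isCharacter (Helper15.irr_one (G := K)))
    exact ⟨n, by rw [Helper15.sum_restrict_eq K, hn]⟩
  choose n hn using hnat
  have hK0 : (Nat.card K : ℂ) ≠ 0 := by exact_mod_cast Nat.card_pos.ne'
  have hzero : ∑ ψ : IrrCharacter B, m ψ * n ψ = 0 := by
    have h1 : ∑ k : K, χ k = (Nat.card K : ℂ) * ∑ ψ : IrrCharacter B, (m ψ : ℂ) * n ψ := by
      simp only [hval]
      rw [Finset.sum_comm, Finset.mul_sum]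
      refine Finset.sum_congr rfl fun ψ _ => ?_
      rw [← Finset.mul_sum, hn]; ring
    rw [h0] at h1
    have h2 := (mul_eq_zero.1 h1.symm).resolve_left hK0
    exact_mod_cast h2
  have hz : ∀ ψ : IrrCharacter B, m ψ ≠ 0 → ∑ k : K, (ψ : B → ℂ) k = 0 := by
    intro ψ hψ
    have := (Finset.sum_eq_zero_iff.1 hzero) ψ (Finset.mem_univ _)
    have h3 : n ψ = 0 := (Nat.mul_eq_zero.1 this).resolve_left hψ
    rw [hn, h3]; simp
  have hex : ∀ ψ : IrrCharacter B, ∃ b d : ℕ,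
      (m ψ : ℂ) * (ψ : B → ℂ) 1 = ((Nat.card H * d : ℕ) : ℂ) ∧
      (m ψ : ℂ) * ∑ z : (⁅K, K⁆ : Subgroup B), (ψ : B → ℂ) z =
        ((Nat.card (⁅K, K⁆ : Subgroup B) * (Nat.card H * b) : ℕ) : ℂ) ∧ Even (b + d) := by
    intro ψ
    by_cases hψ : m ψ = 0
    · exact ⟨0, 0, by simp [hψ], by simp [hψ], by simp⟩
    · obtain ⟨b, d, h1, h2, h3⟩ := frob_irr_D K H hKH hKH' hfpf hK2 ψ (hz ψ hψ)
      refine ⟨m ψ * b, m ψ * d, ?_, ?_, ?_⟩
      · rw [h1]; push_cast; ring
      · rw [h2]; push_cast; ring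
      · rw [← mul_add]; exact h3.mul_left _
  choose b d h1 h2 h3 using hex
  refine ⟨∑ ψ, b ψ, ∑ ψ, d ψ, ?_, ?_, ?_⟩
  · rw [hval]
    simp only [h1]
    push_cast
    rw [Finset.mul_sum]
  · simp only [hval]
    rw [Finset.sum_comm]
    simp only [← Finset.mul_sum, h2]
    push_cast
    simp only [Finset.mul_sum]
  · rw [← Finset.sum_add_distrib]
    exact Finset.even_sum _ (fun ψ _ => h3 ψ)

theorem frob_two_kernel {G : Type*} [Group G] [Fintype G] (Q H Z : Subgroup G) [Fintype Q] [Fintype Z]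
    (hHQ : ∀ h ∈ H, ∀ x ∈ Q, h * x * h⁻¹ ∈ Q) (hdisj : Q ⊓ H = ⊥)
    (hfpf : ∀ h ∈ H, h ≠ 1 → ∀ k ∈ Q, h * k = k * h → k = 1)
    (hQ2 : IsPGroup 2 Q) (hZ : Z = ⁅Q, Q⁆)
    (χ : G → ℂ) (hχ : IsCharacter G χ) (h0 : ∑ x : Q, χ x = 0) :
    ∃ b d : ℕ, χ 1 = ((Nat.card H * d : ℕ) : ℂ) ∧
      ∑ x : Z, χ x = ((Nat.card Z * (Nat.card H * b) : ℕ) : ℂ) ∧ Even (b + d) := by
  classical
  set B : Subgroup G := Q ⊔ H with hB
  have hQB : Q ≤ B := le_sup_left
  have hHB : H ≤ B := le_sup_right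
  set K : Subgroup B := Q.subgroupOf B with hK
  set H' : Subgroup B := H.subgroupOf B with hH'
  have hKn : K.Normal := by
    have hle : B ≤ Subgroup.normalizer (Q : Set G) := by
      rw [hB, sup_le_iff]
      refine ⟨Subgroup.le_normalizer, fun h hh => ?_⟩
      rw [Subgroup.mem_normalizer_iff]
      intro x
      constructor
      · exact hHQ h hh x
      · intro hx
        have := hHQ h⁻¹ (H.inv_mem hh) _ hx
        have e : h⁻¹ * (h * x * h⁻¹) * h⁻¹⁻¹ = x := by group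
        rwa [e] at this
    exact Subgroup.normal_subgroupOf_of_le_normalizer hle
  have h1 : K ⊓ H' = ⊥ := by
    rw [eq_bot_iff]
    intro x hx
    rw [Subgroup.mem_inf, hK, hH', Subgroup.mem_subgroupOf, Subgroup.mem_subgroupOf] at hx
    have : (x : G) ∈ Q ⊓ H := hx
    rw [hdisj, Subgroup.mem_bot] at this
    rw [Subgroup.mem_bot]
    exact Subtype.ext this
  have h2 : K ⊔ H' = ⊤ := by
    rw [hK, hH', ← Subgroup.subgroupOf_sup hQB hHB, ← hB, Subgroup.subgroupOf_self]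
  have h3 : ∀ h ∈ H', h ≠ 1 → ∀ k ∈ K, h * k = k * h → k = 1 := by
    intro h hh hne k hk hc
    rw [hH', Subgroup.mem_subgroupOf] at hh
    rw [hK, Subgroup.mem_subgroupOf] at hk
    have := hfpf h hh (fun e => hne (Subtype.ext e)) k hk (congrArg Subtype.val hc)
    exact Subtype.ext this
  have h4 : IsPGroup 2 K := hQ2.of_equiv (Subgroup.subgroupOfEquivOfLe hQB).symm
  have h5 : IsCharacter B (fun x : B => χ x) := Helper3.IsCharacter.restrict hχ B
  have h6 : ∑ k : K, (fun x : B => χ x) k = 0 := by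
    rw [← h0]
    exact Fintype.sum_equiv (Subgroup.subgroupOfEquivOfLe hQB).toEquiv _ _ (fun k => rfl)
  obtain ⟨b, d, e1, e2, e3⟩ := frob_char_D K H' h1 h2 h3 h4 _ h5 h6
  have hcH : Nat.card H' = Nat.card H := Nat.card_congr (Subgroup.subgroupOfEquivOfLe hHB).toEquiv
  have hmap : (⁅K, K⁆ : Subgroup B).map B.subtype = Z := by
    rw [Subgroup.map_commutator, hK, Subgroup.subgroupOf_map_subtype, inf_eq_left.2 hQB, hZ]
  let e : (⁅K, K⁆ : Subgroup B) ≃* Z :=
    ((⁅K, K⁆ : Subgroup B).equivMapOfInjective B.subtype B.subtype_injective).trans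
      (MulEquiv.subgroupCongr hmap)
  have hcZ : Nat.card (⁅K, K⁆ : Subgroup B) = Nat.card Z := Nat.card_congr e.toEquiv
  refine ⟨b, d, ?_, ?_, e3⟩
  · rw [← hcH]; exact e1
  · rw [← hcH, ← hcZ, ← e2]
    symm
    exact Fintype.sum_equiv e.toEquiv _ _ (fun z => rfl)

end Cfsg.Agent.Lib.Helper4.SzDeg
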