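import Cfsg.Agent.Lib.Helper4.SzDeg.IntegB

/-! [G] from the degree facts to the degree graph (S4775). -/

set_option autoImplicit false
open Cfsg

namespace Cfsg.Agent.Lib.Helper4.SzDeg

theorem graph_glue (S : Type*) [Group S] (q r : ℕ) (hq8 : 8 ≤ q)
    (hq2 : ∀ p : ℕ, p.Prime → p ∣ q → p = 2) (heven : 2 ∣ q) (hr : r ^ 2 = 2 * q)
    (h1 : ∀ d ∈ charDegrees S, d ∣ q ^ 2 * (q ^ 2 + 1) * (q - 1))
    (h2 : q ^ 2 ∈ charDegrees S) (h3 : q ^ 2 + 1 ∈ charDegrees S)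
    (h4 : ∃ d ∈ charDegrees S, 2 * (q - 1) ∣ d)
    (h5 : ∃ d ∈ charDegrees S, (q + r + 1) * (q - 1) ∣ d)
    (h6 : ∃ d ∈ charDegrees S, (q + 1 - r) * (q - 1) ∣ d)
    (h7 : ∀ d ∈ charDegrees S, 2 ∣ d → Nat.Coprime d (q ^ 2 + 1)) :
    degreePrimes S = {p : ℕ | p.Prime ∧ (p = 2 ∨ p ∣ (q - 1) * (q ^ 2 + 1))} ∧
    ∀ p s : ℕ, (degreeGraph S).Adj p s ↔ (p ≠ s ∧ p.Prime ∧ s.Prime ∧
      ((p ∣ (q - 1) * (q ^ 2 + 1) ∧ s ∣ (q - 1) * (q ^ 2 + 1)) ∨ (p = 2 ∧ s ∣ q - 1) ∨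
        (s = 2 ∧ p ∣ q - 1))) := by
  -- arithmetic
  have hrq : r ≤ q := by
    by_contra h
    have : q + 1 ≤ r := by omega
    nlinarith
  have hprod : (q + r + 1) * (q + 1 - r) = q ^ 2 + 1 := by
    obtain ⟨t, ht⟩ : ∃ t, q + 1 = r + t := ⟨q + 1 - r, by omega⟩
    have h2 : q + 1 - r = t := by omega
    rw [h2]
    zify at hr ht ⊢
    have hq : (q : ℤ) = r + t - 1 := by linarith
    rw [hq] at hr ⊢
    nlinarith
  -- a prime dividing a degree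
  have hcase : ∀ p d : ℕ, p.Prime → d ∈ charDegrees S → p ∣ d → p = 2 ∨ p ∣ (q - 1) * (q ^ 2 + 1) := by
    intro p d hp hd hpd
    have h := hpd.trans (h1 d hd)
    rcases (Nat.Prime.dvd_mul hp).1 h with h | h
    · rcases (Nat.Prime.dvd_mul hp).1 h with h | h
      · exact Or.inl (hq2 p hp (hp.dvd_of_dvd_pow h))
      · exact Or.inr (Dvd.dvd.mul_left h _)
    · exact Or.inr (Dvd.dvd.mul_right h _)
  have hodd : ∀ p : ℕ, p ∣ (q - 1) * (q ^ 2 + 1) → p ≠ 2 := by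
    rintro p hp rfl
    obtain ⟨k, hk⟩ := heven
    have h1 : Odd (q - 1) := ⟨k - 1, by omega⟩
    have h2 : Odd (q ^ 2 + 1) := ⟨2 * k ^ 2, by rw [hk]; ring⟩
    exact (Nat.not_even_iff_odd.2 (h1.mul h2)) (even_iff_two_dvd.2 hp)
  have hmul : ∀ {p s n : ℕ}, p.Prime → s.Prime → p ≠ s → p ∣ n → s ∣ n → p * s ∣ n := by
    intro p s n hp hs hne h1 h2
    exact Nat.Coprime.mul_dvd_of_dvd_of_dvd ((Nat.coprime_primes hp hs).2 hne) h1 h2
  -- existence of a degree divisible by p * s, p | q - 1, s | q ^ 2 + 1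
  have hmixed : ∀ p s : ℕ, p.Prime → s.Prime → p ∣ q - 1 → s ∣ q ^ 2 + 1 →
      ∃ d ∈ charDegrees S, p * s ∣ d := by
    intro p s hp hs hpq hsq
    rw [← hprod] at hsq
    rcases (Nat.Prime.dvd_mul hs).1 hsq with h | h
    · obtain ⟨d, hd, hdd⟩ := h5
      exact ⟨d, hd, (by rw [mul_comm]; exact mul_dvd_mul h hpq : p * s ∣ _).trans hdd⟩
    · obtain ⟨d, hd, hdd⟩ := h6
      exact ⟨d, hd, (by rw [mul_comm]; exact mul_dvd_mul h hpq : p * s ∣ _).trans hdd⟩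
  constructor
  · ext p
    simp only [degreePrimes, Set.mem_setOf_eq]
    constructor
    · rintro ⟨hp, d, hd, hpd⟩
      exact ⟨hp, hcase p d hp hd hpd⟩
    · rintro ⟨hp, rfl | h⟩
      · exact ⟨hp, _, h2, Dvd.dvd.pow heven (by norm_num)⟩
      · rcases (Nat.Prime.dvd_mul hp).1 h with h | h
        · obtain ⟨d, hd, hdd⟩ := h4
          exact ⟨hp, d, hd, (Dvd.dvd.mul_left h 2).trans hdd⟩
        · exact ⟨hp, _, h3, h⟩
  · intro p s
    show (p ≠ s ∧ p.Prime ∧ s.Prime ∧ ∃ d ∈ charDegrees S, p * s ∣ d) ↔ _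
    constructor
    · rintro ⟨hne, hp, hs, d, hd, hps⟩
      refine ⟨hne, hp, hs, ?_⟩
      have hpd : p ∣ d := (Dvd.intro _ rfl).trans hps
      have hsd : s ∣ d := (Dvd.intro_left _ rfl).trans hps
      -- helper: 2 | d and s' | d odd prime gives s' | q - 1
      have haux : ∀ s' : ℕ, s'.Prime → s' ∣ d → s' ≠ 2 → 2 ∣ d → s' ∣ q - 1 := by
        intro s' hs' hs'd hs'2 h2d
        rcases hcase s' d hs' hd hs'd with h | h
        · exact absurd h hs'2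
        · rcases (Nat.Prime.dvd_mul hs').1 h with h | h
          · exact h
          · exfalso
            have := Nat.eq_one_of_dvd_coprimes (h7 d hd h2d) hs'd h
            exact hs'.one_lt.ne' this
      rcases hcase p d hp hd hpd with rfl | hp'
      · exact Or.inr (Or.inl ⟨rfl, haux s hs hsd (Ne.symm hne) hpd⟩)
      · rcases hcase s d hs hd hsd with rfl | hs'
        · exact Or.inr (Or.inr ⟨rfl, haux p hp hpd hne hsd⟩)
        · exact Or.inl ⟨hp', hs'⟩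
    · rintro ⟨hne, hp, hs, h⟩
      refine ⟨hne, hp, hs, ?_⟩
      rcases h with ⟨hp', hs'⟩ | ⟨rfl, hs'⟩ | ⟨rfl, hp'⟩
      · rcases (Nat.Prime.dvd_mul hp).1 hp' with hp1 | hp1 <;>
          rcases (Nat.Prime.dvd_mul hs).1 hs' with hs1 | hs1
        · obtain ⟨d, hd, hdd⟩ := h4
          exact ⟨d, hd, ((hmul hp hs hne hp1 hs1).mul_left 2).trans hdd⟩
        · exact hmixed p s hp hs hp1 hs1
        · obtain ⟨d, hd, hdd⟩ := hmixed s p hs hp hs1 hp1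
          exact ⟨d, hd, by rwa [mul_comm]⟩
        · exact ⟨_, h3, hmul hp hs hne hp1 hs1⟩
      · obtain ⟨d, hd, hdd⟩ := h4
        exact ⟨d, hd, (mul_dvd_mul_left 2 hs').trans hdd⟩
      · obtain ⟨d, hd, hdd⟩ := h4
        exact ⟨d, hd, (by rw [mul_comm]; exact mul_dvd_mul_left 2 hp' : p * 2 ∣ _).trans hdd⟩

end Cfsg.Agent.Lib.Helper4.SzDeg
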