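import Mathlib
import Cfsg.Prelude.Def_DegreeGraph
import Cfsg.Agent.Lib.Helper3.Induction
import Cfsg.Agent.Lib.Helper74.CharBasic
import Cfsg.Agent.Lib.Helper80.CoreDvd
import Cfsg.Agent.Lib.Helper4.SzDeg.Ax

/-! General lemmas for the integration step of S4775. -/

set_option autoImplicit false
open Cfsg

namespace Cfsg.Agent.Lib.Helper4.SzDeg

open scoped ComplexConjugate

/-- The average of a character over a subgroup is a natural number. -/
theorem avg_nat {G : Type*} [Group G] [Fintype G] (S : Subgroup G) [Fintype S] {χ : G → ℂ}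
    (hχ : IsCharacter G χ) : ∃ n : ℕ, (Nat.card S : ℂ)⁻¹ * ∑ x : S, χ x = n := by
  obtain ⟨n, hn⟩ := Helper3.IsCharacter.classInner_eq_natCast (Helper3.IsCharacter.restrict hχ S)
    (Helper3.isCharacter_one (G := S))
  refine ⟨n, ?_⟩
  rw [← hn]
  simp [classInner]

/-- Sum over a subgroup of a function constant off the identity. -/
theorem sum_const_off_one {G : Type*} [Group G] (S : Subgroup G) [Fintype S] (f : G → ℂ) (c : ℂ)
    (h : ∀ u ∈ S, u ≠ 1 → f u = c) : ∑ x : S, f x = f 1 + ((Nat.card S : ℂ) - 1) * c := by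
  classical
  rw [← Finset.add_sum_erase Finset.univ (fun x : S => f x) (Finset.mem_univ (1 : S))]
  congr 1
  rw [Finset.sum_congr rfl (g := fun _ => c)]
  · rw [Finset.sum_const, Finset.card_erase_of_mem (Finset.mem_univ _), Finset.card_univ,
      Nat.card_eq_fintype_card, nsmul_eq_mul, Nat.cast_sub Fintype.card_pos]
    simp
  · intro x hx
    exact h x x.2 (fun h1 => (Finset.mem_erase.1 hx).1 (Subtype.ext h1))

end Cfsg.Agent.Lib.Helper4.SzDeg
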