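import Cfsg.Agent.Lib.Helper4.SzDeg.IntegA

/-! Group-theoretic and arithmetic consequences of the axioms `Ax`. -/

set_option autoImplicit false
open Cfsg

namespace Cfsg.Agent.Lib.Helper4.SzDeg

section arith
variable {q r : ℕ}

theorem ar_q8 (hr : r ^ 2 = 2 * q) (hr4 : 4 ∣ r) (hr0 : 0 < r) : 8 ≤ q := by
  obtain ⟨s, rfl⟩ := hr4
  have hs : 1 ≤ s := by omega
  nlinarith

theorem ar_even (hr : r ^ 2 = 2 * q) (hr4 : 4 ∣ r) : 2 ∣ q := by
  obtain ⟨s, rfl⟩ := hr4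
  exact ⟨4 * s ^ 2, by nlinarith⟩

theorem ar_rq (hr : r ^ 2 = 2 * q) (hr4 : 4 ∣ r) (hr0 : 0 < r) : 2 * r ≤ q := by
  obtain ⟨s, rfl⟩ := hr4
  have hs : 1 ≤ s := by omega
  nlinarith

theorem ar_prod (hr : r ^ 2 = 2 * q) (hr4 : 4 ∣ r) (hr0 : 0 < r) :
    (q + r + 1) * (q + 1 - r) = q ^ 2 + 1 := by
  have h := ar_rq hr hr4 hr0
  obtain ⟨t, ht⟩ : ∃ t, q + 1 = r + t := ⟨q + 1 - r, by omega⟩
  have h2 : q + 1 - r = t := by omega
  rw [h2]
  have h3 : q = r + t - 1 := by omega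
  have ht1 : 1 ≤ t := by omega
  zify at hr ht ⊢
  have hq : (q : ℤ) = r + t - 1 := by linarith
  rw [hq] at hr ⊢
  nlinarith

theorem ar_cop (hq : 2 ∣ q) (hq1 : 1 ≤ q) : Nat.Coprime (q ^ 2 + 1) (q ^ 2 * (q - 1)) := by
  apply Nat.Coprime.mul_right
  · rw [Nat.coprime_comm]
    simp
  · obtain ⟨t, ht⟩ : ∃ t, q = t + 1 := ⟨q - 1, by omega⟩
    have h1 : q - 1 = t := by omega
    rw [h1]
    have h2 : q ^ 2 + 1 = t * (t + 2) + 2 := by rw [ht]; ring
    rw [h2]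
    have h3 : Nat.Coprime 2 t := by
      rw [Nat.coprime_two_left]
      obtain ⟨k, hk⟩ := hq
      exact ⟨k - 1, by omega⟩
    have : Nat.gcd (t * (t + 2) + 2) t = Nat.gcd 2 t := by
      rw [add_comm, Nat.gcd_add_mul_left_left]
    rw [Nat.Coprime, this]
    exact h3

end arith

variable {G Ω : Type*} [Group G] [Fintype G] [MulAction G Ω] [Fintype Ω] {q r : ℕ} {a b : Ω}
  {Q Z H Ap Am : Subgroup G}

namespace Ax

theorem q8 (ax : Ax G Ω q r a b Q Z H Ap Am) : 8 ≤ q := ar_q8 ax.hr ax.hr4 ax.hr0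
theorem even (ax : Ax G Ω q r a b Q Z H Ap Am) : 2 ∣ q := ar_even ax.hr ax.hr4
theorem rq (ax : Ax G Ω q r a b Q Z H Ap Am) : 2 * r ≤ q := ar_rq ax.hr ax.hr4 ax.hr0
theorem prod (ax : Ax G Ω q r a b Q Z H Ap Am) : (q + r + 1) * (q + 1 - r) = q ^ 2 + 1 :=
  ar_prod ax.hr ax.hr4 ax.hr0

theorem copP (ax : Ax G Ω q r a b Q Z H Ap Am) : Nat.Coprime (q + r + 1) (q ^ 2 * (q - 1)) :=
  Nat.Coprime.coprime_dvd_left ⟨_, ax.prod.symm⟩ (ar_cop ax.even (by have := ax.q8; omega))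

theorem copM (ax : Ax G Ω q r a b Q Z H Ap Am) : Nat.Coprime (q + 1 - r) (q ^ 2 * (q - 1)) :=
  Nat.Coprime.coprime_dvd_left ⟨_, by rw [mul_comm]; exact ax.prod.symm⟩
    (ar_cop ax.even (by have := ax.q8; omega))

theorem pretrans (ax : Ax G Ω q r a b Q Z H Ap Am) : MulAction.IsPretransitive G Ω :=
  have := ax.zas.2.1
  MulAction.isPretransitive_of_is_two_pretransitive

theorem card_stab (ax : Ax G Ω q r a b Q Z H Ap Am) (c : Ω) :
    Nat.card (MulAction.stabilizer G c) = q ^ 2 * (q - 1) := by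
  have := ax.pretrans
  have h1 := MulAction.index_stabilizer_of_transitive G c
  have h2 := Subgroup.card_mul_index (MulAction.stabilizer G c)
  rw [h1, Nat.card_eq_fintype_card (α := Ω), ax.cardΩ, ax.cardG] at h2
  have h3 : 0 < q ^ 2 + 1 := by positivity
  apply Nat.eq_of_mul_eq_mul_right h3
  rw [h2]; ring

/-- Elements of a subgroup of order prime to `q^2 (q-1)` have no fixed points. -/
theorem no_fix (ax : Ax G Ω q r a b Q Z H Ap Am) (A : Subgroup G) {n : ℕ} (hA : Nat.card A = n)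
    (hcop : Nat.Coprime n (q ^ 2 * (q - 1))) {x : G} (hx : x ∈ A) (hx1 : x ≠ 1) (c : Ω) :
    x • c ≠ c := by
  intro hc
  apply hx1
  have h1 : orderOf x ∣ n := by
    rw [← hA]
    have := orderOf_dvd_natCard (⟨x, hx⟩ : A)
    rwa [Subgroup.orderOf_mk] at this
  have h2 : orderOf x ∣ q ^ 2 * (q - 1) := by
    rw [← ax.card_stab c]
    have hc' : x ∈ MulAction.stabilizer G c := hc
    have := orderOf_dvd_natCard (⟨x, hc'⟩ : MulAction.stabilizer G c)
    rwa [Subgroup.orderOf_mk] at this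
  have h3 : orderOf x = 1 := Nat.eq_one_of_dvd_coprimes hcop h1 h2
  exact orderOf_eq_one_iff.1 h3

theorem exists_ne_one (A : Subgroup G) (h : 1 < Nat.card A) : ∃ x ∈ A, x ≠ 1 := by
  have : Nontrivial A := (Finite.one_lt_card_iff_nontrivial).1 h
  obtain ⟨x, hx⟩ := exists_ne (1 : A)
  exact ⟨x, x.2, fun h => hx (Subtype.ext h)⟩

theorem ti (ax : Ax G Ω q r a b Q Z H Ap Am) (g : G) (x : G) (hx : x ∈ Q) (hx1 : x ≠ 1)
    (hg : g * x * g⁻¹ ∈ Q) : g ∈ MulAction.stabilizer G a := by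
  have h1 : g * x * g⁻¹ ≠ 1 := by
    intro h
    apply hx1
    have : x = g⁻¹ * (g * x * g⁻¹) * g := by group
    rw [this, h]; group
  have h2 : (g * x * g⁻¹) • (g • a) = g • a := by
    have hxa : x • a = a := ax.hQa hx
    rw [← mul_smul, inv_mul_cancel_right, mul_smul, hxa]
  exact ax.hQfix _ hg h1 _ h2

theorem normalizer_eq (ax : Ax G Ω q r a b Q Z H Ap Am) :
    Subgroup.normalizer (Q : Set G) = MulAction.stabilizer G a := by
  ext g
  constructor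
  · intro hg
    have hQ1 : 1 < Nat.card Q := by
      rw [ax.cardQ]; have := ax.q8; nlinarith
    obtain ⟨x, hx, hx1⟩ := exists_ne_one Q hQ1
    exact ax.ti g x hx hx1 ((Subgroup.mem_normalizer_iff.1 hg x).1 hx)
  · intro hg
    rw [Subgroup.mem_normalizer_iff]
    intro x
    refine ⟨fun hx => ax.hQn g hg x hx, fun hx => ?_⟩
    have := ax.hQn g⁻¹ (Subgroup.inv_mem _ hg) _ hx
    have h2 : g⁻¹ * (g * x * g⁻¹) * g⁻¹⁻¹ = x := by group
    rwa [h2] at this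

theorem ZQ (ax : Ax G Ω q r a b Q Z H Ap Am) : Z ≤ Q := by
  rw [ax.hZ]
  rw [Subgroup.commutator_le]
  intro x hx y hy
  exact Q.mul_mem (Q.mul_mem (Q.mul_mem hx hy) (Q.inv_mem hx)) (Q.inv_mem hy)

theorem HB (ax : Ax G Ω q r a b Q Z H Ap Am) : H ≤ MulAction.stabilizer G a := by
  rw [ax.hH]; exact inf_le_left

theorem disj (ax : Ax G Ω q r a b Q Z H Ap Am) : Q ⊓ H = ⊥ := by
  rw [eq_bot_iff]
  intro x hx
  rw [Subgroup.mem_bot]
  by_contra hx1
  have hb : x • b = b := by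
    have := hx.2
    rw [ax.hH] at this
    exact this.2
  exact ax.hab (ax.hQfix x hx.1 hx1 b hb).symm

theorem Z_inv (ax : Ax G Ω q r a b Q Z H Ap Am) (g : G) (hg : g ∈ MulAction.stabilizer G a)
    (x : G) (hx : x ∈ Z) : g * x * g⁻¹ ∈ Z := by
  have hmap : Q.map (MulAut.conj g).toMonoidHom = Q := by
    apply le_antisymm
    · rintro _ ⟨u, hu, rfl⟩
      exact ax.hQn g hg u hu
    · intro u hu
      refine ⟨g⁻¹ * u * g, ?_, ?_⟩
      · have := ax.hQn g⁻¹ (Subgroup.inv_mem _ hg) u hu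
        rwa [inv_inv] at this
      · simp [MulAut.conj_apply]; group
  have h2 : Z.map (MulAut.conj g).toMonoidHom = Z := by
    rw [ax.hZ, Subgroup.map_commutator, hmap]
  rw [← h2]
  exact ⟨x, hx, by simp [MulAut.conj_apply]⟩

end Ax

end Cfsg.Agent.Lib.Helper4.SzDeg
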