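import Mathlib
import Cfsg.Agent.Lib.Helper3.Induction
import Cfsg.Agent.Lib.Helper74.CharBasic

set_option autoImplicit false
open Cfsg

/-! # S4775 farm, piece [L]: norm of the class function induced from `ρ_{Q/Z} - 1_Q` -/

namespace Cfsg.Agent.Lib.Helper4.SzDeg

open Cfsg.Agent.Lib.Helper3
open scoped ComplexConjugate

/-- sums over a subgroup as sums over the group -/
theorem sum_subgroup_L {G : Type*} [Group G] [Fintype G] (S : Subgroup G) [Fintype S] (F : G → ℂ) :
    ∑ x : S, F x = ∑ y : G, extendByZero S (fun _ => (1 : ℂ)) y * F y := by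
  rw [sum_extendByZero_mul]
  simp

theorem ext_one_L {G : Type*} [Group G] (S : Subgroup G) (y : G) [Decidable (y ∈ S)] :
    extendByZero S (fun _ => (1 : ℂ)) y = if y ∈ S then 1 else 0 := by
  split_ifs with h
  · exact extendByZero_apply_mem S _ h
  · exact extendByZero_apply_not_mem S _ h

theorem sum_ext_one_L {G : Type*} [Group G] [Fintype G] (S : Subgroup G) :
    ∑ y : G, extendByZero S (fun _ => (1 : ℂ)) y = (Nat.card S : ℂ) := by
  classical
  rw [sum_extendByZero]
  simp [Nat.card_eq_fintype_card]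

theorem conj_sum_subgroup_L {G : Type*} [Group G] [Fintype G] (S : Subgroup G) [Fintype S]
    {χ : G → ℂ} (hχ : IsCharacter G χ) : conj (∑ x : S, χ x) = ∑ x : S, χ x := by
  rw [map_sum]
  refine Fintype.sum_equiv (Equiv.inv S) _ _ fun x => ?_
  simp only [Equiv.inv_apply, Subgroup.coe_inv]
  rw [IsCharacter.apply_inv hχ]

theorem sum_avg_mul_deg {G : Type*} [Group G] [Fintype G] (S : Subgroup G) [Fintype S] :
    ∑ χ : IrrCharacter G, ((Nat.card S : ℂ)⁻¹ * ∑ x : S, (χ : G → ℂ) x) * (χ : G → ℂ) 1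
      = (S.index : ℂ) := by
  classical
  have hS : (Nat.card S : ℂ) ≠ 0 := by exact_mod_cast Nat.card_pos.ne'
  have h1 : ∀ χ : IrrCharacter G, conj ((χ : G → ℂ) 1) = (χ : G → ℂ) 1 := by
    intro χ
    obtain ⟨n, hn⟩ := IsCharacter.apply_one_eq_natCast (IsIrrCharacter.isCharacter χ.2)
    rw [hn, Complex.conj_natCast]
  have h2 : ∀ x : G, ∑ χ : IrrCharacter G, (χ : G → ℂ) x * (χ : G → ℂ) 1 =
      if x = 1 then (Nat.card G : ℂ) else 0 := by
    intro x
    have := column_orthogonality x (1 : G)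
    simp only [h1] at this
    rw [this]
    by_cases hx : x = 1
    · subst hx
      rw [if_pos (IsConj.refl 1), if_pos rfl]
      congr 1
      have : Subgroup.centralizer ({1} : Set G) = ⊤ := by
        ext g; simp [Subgroup.mem_centralizer_iff]
      rw [this]
      exact Nat.card_congr Subgroup.topEquiv.toEquiv
    · rw [if_neg hx, if_neg]
      intro hc
      exact hx (isConj_one_left.1 hc)
  calc ∑ χ : IrrCharacter G, ((Nat.card S : ℂ)⁻¹ * ∑ x : S, (χ : G → ℂ) x) * (χ : G → ℂ) 1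
      = (Nat.card S : ℂ)⁻¹ * ∑ x : S, ∑ χ : IrrCharacter G, (χ : G → ℂ) x * (χ : G → ℂ) 1 := by
        rw [Finset.sum_comm, Finset.mul_sum]
        refine Finset.sum_congr rfl fun χ _ => ?_
        rw [mul_assoc, Finset.sum_mul]
    _ = (Nat.card S : ℂ)⁻¹ * (Nat.card G : ℂ) := by
        congr 1
        simp only [h2]
        rw [Finset.sum_eq_single (1 : S)]
        · simp
        · intro b _ hb
          rw [if_neg]
          intro h
          exact hb (Subtype.ext h)
        · intro h; exact absurd (Finset.mem_univ _) h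
    _ = (S.index : ℂ) := by
        rw [← S.card_mul_index]
        push_cast
        field_simp

theorem sum_L_sq {G : Type*} [Group G] [Fintype G] (Q Z : Subgroup G) [Fintype Q] [Fintype Z] (q : ℕ)
    (hq : 2 ≤ q) (cardG : Nat.card G = q ^ 2 * (q ^ 2 + 1) * (q - 1)) (cardQ : Nat.card Q = q ^ 2)
    (cardZ : Nat.card Z = q) (hZQ : Z ≤ Q)
    (cardN : Nat.card (Subgroup.normalizer (Q : Set G)) = q ^ 2 * (q - 1))
    (hTI : ∀ g : G, ∀ x ∈ Q, x ≠ 1 → g * x * g⁻¹ ∈ Q → g ∈ Subgroup.normalizer (Q : Set G))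
    (hZN : ∀ g ∈ Subgroup.normalizer (Q : Set G), ∀ x ∈ Z, g * x * g⁻¹ ∈ Z) :
    ∑ χ : IrrCharacter G, ((Nat.card Z : ℂ)⁻¹ * ∑ x : Z, (χ : G → ℂ) x
        - (Nat.card Q : ℂ)⁻¹ * ∑ x : Q, (χ : G → ℂ) x) ^ 2 = ((q * (q - 1) ^ 2 : ℕ) : ℂ) := by
  classical
  have hq0 : (q : ℂ) ≠ 0 := by
    have : q ≠ 0 := by omega
    exact_mod_cast this
  have hq1 : ((q - 1 : ℕ) : ℂ) = (q : ℂ) - 1 := by
    rw [Nat.cast_sub (by omega)]; simp
  set N := Subgroup.normalizer (Q : Set G) with hN
  -- the function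
  set f0 : Q → ℂ := fun x => if (x : G) ∈ Z then (q : ℂ) - 1 else -1 with hf0
  set Φ : G → ℂ := indFun Q f0 with hΦ
  have hΦc : IsClassFunction G Φ := isClassFunction_indFun Q f0
  have hf0conj : ∀ x, conj (f0 x) = f0 x := by
    intro x
    simp only [hf0]
    split_ifs <;> simp
  -- sums over `Q` of functions supported on `Z`
  have hsumZ : ∀ F : G → ℂ, ∑ x : Q, (if (x : G) ∈ Z then F x else 0) = ∑ z : Z, F z := by
    intro F
    have e1 := sum_subgroup_L Q (fun y => if y ∈ Z then F y else 0)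
    rw [e1, sum_subgroup_L Z F]
    refine Finset.sum_congr rfl fun y _ => ?_
    rw [ext_one_L, ext_one_L]
    by_cases hy : y ∈ Z
    · simp [hy, hZQ hy]
    · simp [hy]
  -- the coefficient
  have hcoef : ∀ χ : IrrCharacter G, classInner Φ χ =
      (Nat.card Z : ℂ)⁻¹ * ∑ x : Z, (χ : G → ℂ) x - (Nat.card Q : ℂ)⁻¹ * ∑ x : Q, (χ : G → ℂ) x := by
    intro χ
    have hχ := IsIrrCharacter.isCharacter χ.2
    rw [hΦ, frobenius_reciprocity Q f0 (IsIrrCharacter.isClassFunction χ.2)]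
    unfold classInner
    have e1 : ∑ g : Q, f0 g * conj ((χ : G → ℂ) g) =
        (q : ℂ) * ∑ z : Z, conj ((χ : G → ℂ) z) - ∑ x : Q, conj ((χ : G → ℂ) x) := by
      rw [← hsumZ (fun y => conj ((χ : G → ℂ) y)), Finset.mul_sum, ← Finset.sum_sub_distrib]
      refine Finset.sum_congr rfl fun x _ => ?_
      simp only [hf0]
      split_ifs <;> ring
    rw [e1, ← map_sum, ← map_sum, conj_sum_subgroup_L Z hχ, conj_sum_subgroup_L Q hχ, cardQ, cardZ]
    push_cast
    field_simp
  have hreal : ∀ χ : IrrCharacter G, classInner (χ : G → ℂ) Φ = classInner Φ χ := by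
    intro χ
    have hχ := IsIrrCharacter.isCharacter χ.2
    rw [← classInner_conj_symm, hcoef, map_sub, map_mul, map_mul, conj_sum_subgroup_L Z hχ,
      conj_sum_subgroup_L Q hχ, map_inv₀, map_inv₀, Complex.conj_natCast, Complex.conj_natCast]
  have hpars : ∑ χ : IrrCharacter G, ((Nat.card Z : ℂ)⁻¹ * ∑ x : Z, (χ : G → ℂ) x
        - (Nat.card Q : ℂ)⁻¹ * ∑ x : Q, (χ : G → ℂ) x) ^ 2 = classInner Φ Φ := by
    rw [classInner_eq_sum_coeff hΦc]
    refine Finset.sum_congr rfl fun χ _ => ?_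
    rw [hreal, hcoef, sq]
  rw [hpars]
  -- values of `Φ` on `Q`
  have hinv : ∀ g ∈ N, ∀ x : G, x ∈ Z ↔ g⁻¹ * x * g ∈ Z := by
    intro g hg x
    constructor
    · intro hx
      have := hZN g⁻¹ (N.inv_mem hg) x hx
      rwa [inv_inv] at this
    · intro hx
      have := hZN g hg _ hx
      have e : g * (g⁻¹ * x * g) * g⁻¹ = x := by group
      rwa [e] at this
  have hval : ∀ x : Q, x ≠ 1 → Φ x = ((q : ℂ) - 1) * f0 x := by
    intro x hx
    have hx1 : (x : G) ≠ 1 := fun h => hx (Subtype.ext h)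
    rw [hΦ, indFun_apply]
    have e1 : ∀ g : G, extendByZero Q f0 (g⁻¹ * x * g) =
        extendByZero N (fun _ => (1 : ℂ)) g * f0 x := by
      intro g
      by_cases hg : g ∈ N
      · have hmem : g⁻¹ * x * g ∈ Q := by
          have := (Subgroup.mem_normalizer_iff.1 (N.inv_mem hg) x).1 x.2
          rwa [inv_inv] at this
        rw [extendByZero_apply_mem Q _ hmem, extendByZero_apply_mem N _ hg, one_mul]
        simp only [hf0]
        have := hinv g hg x
        by_cases hz : (x : G) ∈ Z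
        · rw [if_pos hz, if_pos (this.1 hz)]
        · rw [if_neg hz, if_neg (fun h => hz (this.2 h))]
      · have hmem : g⁻¹ * x * g ∉ Q := by
          intro h
          have := hTI g⁻¹ x x.2 hx1 (by rwa [inv_inv])
          exact hg (by simpa using N.inv_mem this)
        rw [extendByZero_apply_not_mem Q _ hmem, extendByZero_apply_not_mem N _ hg, zero_mul]
    simp only [e1]
    rw [← Finset.sum_mul, sum_ext_one_L, cardN, cardQ]
    push_cast
    rw [hq1]
    field_simp
  have hval1 : Φ ((1 : Q) : G) = (((q : ℂ) ^ 2 + 1) * ((q : ℂ) - 1)) * f0 1 := by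
    rw [hΦ, Subgroup.coe_one, indFun_one]
    congr 1
    have h1 := Q.card_mul_index
    rw [cardQ, cardG] at h1
    have h2 : Q.index = (q ^ 2 + 1) * (q - 1) := by
      have hpos : 0 < q ^ 2 := by positivity
      apply Nat.eq_of_mul_eq_mul_left hpos
      rw [h1]; ring
    rw [h2]
    push_cast
    rw [hq1]
  have hf01 : f0 1 = (q : ℂ) - 1 := by
    simp only [hf0]
    rw [if_pos (by simp)]
  have hvalall : ∀ x : Q, Φ x = ((q : ℂ) - 1) * f0 x +
      (if x = 1 then (q : ℂ) ^ 2 * ((q : ℂ) - 1) ^ 2 else 0) := by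
    intro x
    by_cases hx : x = 1
    · subst hx
      rw [hval1, if_pos rfl, hf01]; ring
    · rw [hval x hx, if_neg hx, add_zero]
  have hsq : ∑ x : Q, f0 x * f0 x = (q : ℂ) ^ 2 * ((q : ℂ) - 1) := by
    have e1 : ∀ x : Q, f0 x * f0 x =
        (if (x : G) ∈ Z then ((q : ℂ) - 1) ^ 2 - 1 else 0) + 1 := by
      intro x
      simp only [hf0]
      split_ifs <;> ring
    simp only [e1]
    rw [Finset.sum_add_distrib, hsumZ (fun _ => ((q : ℂ) - 1) ^ 2 - 1)]
    simp only [Finset.sum_const, Finset.card_univ, nsmul_eq_mul, mul_one]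
    rw [← Nat.card_eq_fintype_card, ← Nat.card_eq_fintype_card, cardZ, cardQ]
    push_cast
    ring
  rw [show classInner Φ Φ = classInner f0 (fun h : Q => Φ h) from
    frobenius_reciprocity Q f0 hΦc]
  unfold classInner
  have e2 : ∑ g : Q, f0 g * conj (Φ g) =
      ((q : ℂ) - 1) * ((q : ℂ) ^ 2 * ((q : ℂ) - 1)) + ((q : ℂ) - 1) * ((q : ℂ) ^ 2 * ((q : ℂ) - 1) ^ 2) := by
    have e3 : ∀ g : Q, f0 g * conj (Φ g) = ((q : ℂ) - 1) * (f0 g * f0 g) +
        (if g = 1 then f0 g * ((q : ℂ) ^ 2 * ((q : ℂ) - 1) ^ 2) else 0) := by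
      intro g
      rw [hvalall, map_add, map_mul, hf0conj]
      split_ifs <;> simp <;> ring
    simp only [e3]
    rw [Finset.sum_add_distrib, ← Finset.mul_sum, hsq, Finset.sum_ite_eq' Finset.univ (1 : Q)]
    simp [hf01]
  rw [e2, cardQ]
  push_cast
  rw [hq1]
  field_simp
  ring

end Cfsg.Agent.Lib.Helper4.SzDeg
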