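import Mathlib
import Cfsg.Agent.Lib.Helper3.Induction
import Cfsg.Agent.Lib.Helper74.CharBasic
import Cfsg.Agent.Lib.Helper80.Linear
import Cfsg.Agent.Lib.Helper15.Gallagher
import Cfsg.Agent.Lib.Helper15.PermChar
import Cfsg.Agent.S0881
import Cfsg.Agent.Lib.Helper33.SLminX

set_option autoImplicit false
open Cfsg

/-! # S4775 farm, piece [P]: principal series of a Zassenhaus group -/

namespace Cfsg.Agent.Lib.Helper4.SzDeg

open Cfsg.Agent.Lib
open scoped ComplexConjugate

theorem principal_series {G Ω : Type*} [Group G] [Fintype G] [MulAction G Ω] [Fintype Ω]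
    (hZ : IsZassenhausGroup G Ω) [IsSimpleGroup G] {a b : Ω} (hab : a ≠ b)
    (hodd : Odd (Nat.card ↥(MulAction.stabilizer G a ⊓ MulAction.stabilizer G b : Subgroup G)))
    (hlt : Nat.card ↥(MulAction.stabilizer G a ⊓ MulAction.stabilizer G b : Subgroup G)
      < Fintype.card Ω - 2)
    (Q : Subgroup G) [Fintype Q] (hQa : Q ≤ MulAction.stabilizer G a)
    (hQcard : Nat.card Q + 1 = Fintype.card Ω)
    (hQfix : ∀ u ∈ Q, u ≠ 1 → ∀ c : Ω, u • c = c → c = a)
    (hQn : ∀ x ∈ MulAction.stabilizer G a, ∀ u ∈ Q, x * u * x⁻¹ ∈ Q)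
    (hBab : ∀ x ∈ MulAction.stabilizer G a, ∀ y ∈ MulAction.stabilizer G a, x * y * x⁻¹ * y⁻¹ ∈ Q)
    (χ : IrrCharacter G) (hχ : ∑ x : Q, (χ : G → ℂ) x ≠ 0) :
    (χ : G → ℂ) = (fun _ => 1) ∨
    (χ : G → ℂ) = (fun g => (Nat.card (MulAction.fixedBy Ω g) : ℂ)) - (fun _ => (1 : ℂ)) ∨
    ((χ : G → ℂ) 1 = Fintype.card Ω ∧ (∀ u ∈ Q, u ≠ 1 → (χ : G → ℂ) u = 1) ∧
      ∀ g : G, (∀ c : Ω, g • c ≠ c) → (χ : G → ℂ) g = 0) := by
  classical
  set B : Subgroup G := MulAction.stabilizer G a with hB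
  have h2t : MulAction.IsMultiplyPretransitive G Ω 2 := hZ.2.1
  have h1t : MulAction.IsPretransitive G Ω := MulAction.isPretransitive_of_is_two_pretransitive
  set K : Subgroup B := Q.subgroupOf B with hK
  have hKn : K.Normal := by
    refine ⟨fun n hn g => ?_⟩
    rw [hK, Subgroup.mem_subgroupOf] at hn ⊢
    exact hQn g g.2 n hn
  have hχc : IsCharacter G (χ : G → ℂ) := Helper3.IsIrrCharacter.isCharacter χ.2
  have hχB : IsCharacter B (fun x : B => (χ : G → ℂ) x) := Helper3.IsCharacter.restrict hχc B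
  -- sums over `Q` and `K`
  have hsum : ∀ F : G → ℂ, ∑ k : K, F ((k : B) : G) = ∑ x : Q, F x := by
    intro F
    exact Fintype.sum_equiv (Subgroup.subgroupOfEquivOfLe hQa).toEquiv _ _ (fun k => rfl)
  -- a constituent
  obtain ⟨η, hη1, hη2⟩ : ∃ η : IrrCharacter B,
      classInner (fun x : B => (χ : G → ℂ) x) (η : B → ℂ) ≠ 0 ∧ ∑ k : K, (η : B → ℂ) k ≠ 0 := by
    by_contra hcon
    push Not at hcon
    apply hχ
    rw [← hsum]
    have e := Helper74.IsCharacter.eq_sum_classInner hχB
    have e2 : ∀ k : K, (χ : G → ℂ) ((k : B) : G) =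
        ∑ ψ : IrrCharacter B, classInner (fun x : B => (χ : G → ℂ) x) (ψ : B → ℂ) * (ψ : B → ℂ) k := by
      intro k
      have := congrFun e (k : B)
      simpa [Finset.sum_apply] using this
    simp only [e2]
    rw [Finset.sum_comm]
    refine Finset.sum_eq_zero fun ψ _ => ?_
    rw [← Finset.mul_sum]
    by_cases h0 : classInner (fun x : B => (χ : G → ℂ) x) (ψ : B → ℂ) = 0
    · rw [h0, zero_mul]
    · rw [hcon ψ h0, mul_zero]
  -- `K` is in the kernel
  have hker : ∀ n : K, (η : B → ℂ) n = (η : B → ℂ) 1 := by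
    refine (Helper15.restrict_eq_of_inner_one_ne_zero K η.2 ?_).2
    intro h0
    apply hη2
    rw [Helper15.sum_restrict_eq K, h0, mul_zero]
  have hdeg : (η : B → ℂ) 1 = 1 := by
    rw [Helper80.char_one_eq_one_iff]
    intro n hn
    have hle : commutator B ≤ K := by
      rw [commutator_def, Subgroup.commutator_le]
      intro x _ y _
      rw [hK, Subgroup.mem_subgroupOf]
      exact hBab x x.2 y y.2
    exact hker ⟨n, hle hn⟩
  have hηc : IsCharacter B (η : B → ℂ) := Helper3.IsIrrCharacter.isCharacter η.2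
  have hfrob : classInner (indFun B (η : B → ℂ)) (χ : G → ℂ) ≠ 0 := by
    rw [Helper3.frobenius_reciprocity B _ (Helper3.IsIrrCharacter.isClassFunction χ.2),
      ← Helper3.classInner_conj_symm]
    intro h0
    exact hη1 ((map_eq_zero _).1 h0)
  by_cases hη : (η : B → ℂ) = fun _ => 1
  · -- the permutation character
    rw [hη] at hfrob
    have hπ : indFun B (fun _ => (1 : ℂ)) =
        (fun _ => (1 : ℂ)) + ((fun g => (Nat.card (MulAction.fixedBy Ω g) : ℂ)) - fun _ => (1 : ℂ)) := by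
      ext g
      rw [← Helper15.card_fixedBy_eq_indFun Ω a g]
      simp
    have hne2 : Nonempty (Fin 2 ↪ Ω) :=
      ⟨⟨![a, b], by
        intro i j hij
        fin_cases i <;> fin_cases j <;> simp_all⟩⟩
    have hne1 : Nonempty Ω := ⟨a⟩
    have hirr := Helper33.x_irr_of_two_trans (G := G) Ω h1t h2t
    rw [hπ, Helper3.classInner_add_left] at hfrob
    by_cases h1 : (χ : G → ℂ) = fun _ => 1
    · exact Or.inl h1
    · right; left
      by_contra h2
      apply hfrob
      rw [Helper3.classInner_irr_ne Helper3.isIrrCharacter_one χ.2 (fun h => h1 h.symm),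
        Helper3.classInner_irr_ne hirr χ.2 (fun h => h2 h.symm), add_zero]
  · right; right
    obtain ⟨hirr, hval⟩ := Cfsg.Agent.S0881.result hZ hab hodd hlt Q hQa hQcard hQfix (η : B → ℂ)
      ⟨hηc, hdeg⟩ (fun u hu => by
        have := hker ⟨u, by rw [hK, Subgroup.mem_subgroupOf]; exact hu⟩
        rw [← hdeg]; exact this) hη
    have heq : (χ : G → ℂ) = indFun B (η : B → ℂ) := by
      by_contra hne
      exact hfrob (Helper3.classInner_irr_ne hirr χ.2 (fun h => hne h.symm))
    refine ⟨?_, ?_, ?_⟩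
    · rw [heq, Helper3.indFun_one, hdeg, mul_one, hB, MulAction.index_stabilizer_of_transitive,
        Nat.card_eq_fintype_card]
    · intro u hu hu1
      rw [heq]; exact hval u hu hu1
    · intro g hg
      rw [heq, Helper3.indFun_apply]
      have : ∀ x : G, extendByZero B (η : B → ℂ) (x⁻¹ * g * x) = 0 := by
        intro x
        apply Helper3.extendByZero_apply_not_mem
        intro hmem
        rw [hB, MulAction.mem_stabilizer_iff, mul_smul, mul_smul, inv_smul_eq_iff] at hmem
        exact hg _ hmem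
      simp [this]

end Cfsg.Agent.Lib.Helper4.SzDeg
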