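import Mathlib
import Cfsg.Prelude.Def_DegreeGraph
import Cfsg.Agent.Lib.Helper3.Induction
import Cfsg.Agent.Lib.Helper74.CharBasic
import Cfsg.Agent.Lib.Helper80.Linear

set_option autoImplicit false
open Cfsg
open scoped ComplexConjugate

namespace Cfsg.Agent.Lib.Helper4.SzDeg
namespace T1aux

open Cfsg.Agent.Lib.Helper3 Cfsg.Agent.Lib.Helper74 Cfsg.Agent.Lib.Helper80

variable {G : Type*} [Group G] (A : Subgroup G)

/-- conjugation by an element of the normalizer -/
def cj (x : Subgroup.normalizer (A : Set G)) : A ≃* A where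
  toFun a := ⟨(x : G) * a * (x : G)⁻¹, (Subgroup.mem_normalizer_iff.1 x.2 a).1 a.2⟩
  invFun a := ⟨(x : G)⁻¹ * a * x, by
    apply (Subgroup.mem_normalizer_iff.1 x.2 ((x : G)⁻¹ * a * x)).2
    simp [mul_assoc]⟩
  left_inv a := by ext; simp [mul_assoc]
  right_inv a := by ext; simp [mul_assoc]
  map_mul' a b := by ext; simp [mul_assoc]

theorem cj_coe (x : Subgroup.normalizer (A : Set G)) (a : A) :
    ((cj A x a : A) : G) = (x : G) * a * (x : G)⁻¹ := rfl

variable {A}

theorem mem_normalizer_of_conj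
    (hcomm : ∀ a ∈ A, ∀ b ∈ A, a * b = b * a)
    (hcent : ∀ a ∈ A, a ≠ 1 → ∀ g : G, g * a = a * g → g ∈ A)
    {a : G} (ha : a ∈ A) (ha1 : a ≠ 1) {y : G} (hy : y * a * y⁻¹ ∈ A) :
    y ∈ Subgroup.normalizer (A : Set G) := by
  have hne : y * a * y⁻¹ ≠ 1 := by
    intro h
    apply ha1
    have : a = y⁻¹ * (y * a * y⁻¹) * y := by group
    rw [this, h]; group
  rw [Subgroup.mem_normalizer_iff]
  intro b
  constructor
  · intro hb
    apply hcent _ hy hne
    have := hcomm b hb a ha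
    calc y * b * y⁻¹ * (y * a * y⁻¹) = y * (b * a) * y⁻¹ := by group
      _ = y * (a * b) * y⁻¹ := by rw [this]
      _ = _ := by group
  · intro hb
    apply hcent a ha ha1
    have := hcomm _ hb _ hy
    calc b * a = y⁻¹ * (y * b * y⁻¹ * (y * a * y⁻¹)) * y := by group
      _ = y⁻¹ * (y * a * y⁻¹ * (y * b * y⁻¹)) * y := by rw [this]
      _ = _ := by group

variable [Fintype G] [Fintype A] [Fintype (Subgroup.normalizer (A : Set G))]

open scoped Classical in
theorem card_memA (n : ℕ) (hn : Nat.card A = n) :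
    (Finset.univ.filter (fun x : Subgroup.normalizer (A : Set G) => (x : G) ∈ A)).card = n := by
  rw [← hn, Nat.card_eq_fintype_card, ← Finset.card_univ]
  symm
  refine Finset.card_bij (fun b _ => ⟨b, Subgroup.le_normalizer b.2⟩) ?_ ?_ ?_
  · intro b _
    simp
  · intro b _ c _ h
    ext
    simpa using congrArg (fun z : Subgroup.normalizer (A : Set G) => (z : G)) h
  · intro x hx
    rw [Finset.mem_filter] at hx
    exact ⟨⟨x, hx.2⟩, Finset.mem_univ _, rfl⟩

open scoped Classical in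
theorem card_fiber (n : ℕ) (hn : Nat.card A = n)
    (hcomm : ∀ a ∈ A, ∀ b ∈ A, a * b = b * a)
    (hcent : ∀ a ∈ A, a ≠ 1 → ∀ g : G, g * a = a * g → g ∈ A)
    (a a' : A) (ha : a ≠ 1) :
    (Finset.univ.filter (fun x : Subgroup.normalizer (A : Set G) => cj A x a = a')).card
      = if IsConj (a : G) (a' : G) then n else 0 := by
  have ha1 : (a : G) ≠ 1 := fun h => ha (Subtype.ext h)
  by_cases h : IsConj (a : G) (a' : G)
  · rw [if_pos h]
    obtain ⟨y, hy⟩ := isConj_iff.1 h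
    have hyN : y ∈ Subgroup.normalizer (A : Set G) :=
      mem_normalizer_of_conj hcomm hcent a.2 ha1 (by rw [hy]; exact a'.2)
    rw [← hn, Nat.card_eq_fintype_card, ← Finset.card_univ]
    symm
    refine Finset.card_bij
      (fun b _ => ⟨y * b, Subgroup.mul_mem _ hyN (Subgroup.le_normalizer b.2)⟩) ?_ ?_ ?_
    · intro b _
      rw [Finset.mem_filter]
      refine ⟨Finset.mem_univ _, ?_⟩
      ext
      rw [cj_coe, ← hy]
      have := hcomm b b.2 a a.2
      show y * b * a * (y * b)⁻¹ = _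
      calc y * b * a * (y * b)⁻¹ = y * ((b : G) * a) * (b : G)⁻¹ * y⁻¹ := by group
        _ = y * ((a : G) * b) * (b : G)⁻¹ * y⁻¹ := by rw [this]
        _ = _ := by group
    · intro b _ c _ h
      ext
      have := congrArg (fun z : Subgroup.normalizer (A : Set G) => (z : G)) h
      simpa using this
    · intro x hx
      rw [Finset.mem_filter] at hx
      have hx2 : (x : G) * a * (x : G)⁻¹ = a' := by rw [← cj_coe, hx.2]
      have hmem : y⁻¹ * (x : G) ∈ A := by
        apply hcent a a.2 ha1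
        have e : (x : G) * a * (x : G)⁻¹ = y * a * y⁻¹ := by rw [hx2, hy]
        calc y⁻¹ * (x : G) * a = y⁻¹ * ((x : G) * a * (x : G)⁻¹) * x := by group
          _ = y⁻¹ * (y * a * y⁻¹) * x := by rw [e]
          _ = _ := by group
      refine ⟨⟨_, hmem⟩, Finset.mem_univ _, ?_⟩
      ext
      simp
  · rw [if_neg h, Finset.card_eq_zero, Finset.filter_eq_empty_iff]
    intro x _ hx
    apply h
    rw [isConj_iff]
    exact ⟨x, by rw [← cj_coe, hx]⟩

theorem card_centralizer (n : ℕ) (hn : Nat.card A = n)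
    (hcomm : ∀ a ∈ A, ∀ b ∈ A, a * b = b * a)
    (hcent : ∀ a ∈ A, a ≠ 1 → ∀ g : G, g * a = a * g → g ∈ A)
    (a : A) (ha : a ≠ 1) : Nat.card (Subgroup.centralizer ({(a : G)} : Set G)) = n := by
  have ha1 : (a : G) ≠ 1 := fun h => ha (Subtype.ext h)
  have : Subgroup.centralizer ({(a : G)} : Set G) = A := by
    ext g
    rw [Subgroup.mem_centralizer_singleton_iff]
    exact ⟨fun h => hcent a a.2 ha1 g h, fun h => hcomm g h a a.2⟩
  rw [this, hn]

/-- the basic bilinear identity -/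
theorem sum_W (n : ℕ) (hn : Nat.card A = n)
    (hcomm : ∀ a ∈ A, ∀ b ∈ A, a * b = b * a)
    (hcent : ∀ a ∈ A, a ≠ 1 → ∀ g : G, g * a = a * g → g ∈ A)
    (f g : A → ℂ) (hf : f 1 = 0) :
    ∑ χ : IrrCharacter G, (∑ a : A, (χ : G → ℂ) a * f a) * conj (∑ a : A, (χ : G → ℂ) a * g a)
      = ∑ x : Subgroup.normalizer (A : Set G), ∑ a : A, f a * conj (g (cj A x a)) := by
  classical
  have h1 : ∀ χ : IrrCharacter G,
      (∑ a : A, (χ : G → ℂ) a * f a) * conj (∑ a : A, (χ : G → ℂ) a * g a)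
      = ∑ a : A, ∑ a' : A, f a * conj (g a') * ((χ : G → ℂ) a * conj ((χ : G → ℂ) a')) := by
    intro χ
    rw [map_sum, Finset.sum_mul_sum]
    refine Finset.sum_congr rfl fun a _ => Finset.sum_congr rfl fun a' _ => ?_
    rw [map_mul]; ring
  simp only [h1]
  rw [Finset.sum_comm]
  rw [Finset.sum_comm (s := (Finset.univ : Finset (Subgroup.normalizer (A : Set G))))]
  refine Finset.sum_congr rfl fun a _ => ?_
  rw [Finset.sum_comm]
  simp only [← Finset.mul_sum, column_orthogonality]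
  by_cases ha : a = 1
  · rw [ha, hf]; simp
  · rw [← Finset.sum_fiberwise (Finset.univ : Finset (Subgroup.normalizer (A : Set G)))
      (fun x => cj A x a) (fun x => conj (g (cj A x a))), Finset.mul_sum]
    refine Finset.sum_congr rfl fun a' _ => ?_
    have e : ∑ x ∈ Finset.univ.filter
        (fun x : Subgroup.normalizer (A : Set G) => cj A x a = a'), conj (g (cj A x a))
        = ((if IsConj (a : G) (a' : G) then n else 0 : ℕ) : ℂ) * conj (g a') := by
      rw [← card_fiber n hn hcomm hcent a a' ha, ← nsmul_eq_mul, ← Finset.sum_const]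
      refine Finset.sum_congr rfl fun x hx => ?_
      rw [(Finset.mem_filter.1 hx).2]
    rw [e, card_centralizer n hn hcomm hcent a ha]
    split_ifs
    · push_cast; ring
    · simp


/-- the trivial character of `A` -/
def triv (H : Type*) [Group H] : IrrCharacter H := ⟨fun _ => 1, isIrrCharacter_one⟩

omit [Fintype G] [Fintype (Subgroup.normalizer (A : Set G))] in
open scoped Classical in
theorem sumA (n : ℕ) (hn : Nat.card A = n) (hn0 : n ≠ 0) (μ ν : IrrCharacter A) :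
    ∑ a : A, (μ : A → ℂ) a * conj ((ν : A → ℂ) a) = if μ = ν then (n : ℂ) else 0 := by
  have h := classInner_irr μ ν
  rw [classInner, hn] at h
  have hn' : (n : ℂ) ≠ 0 := by exact_mod_cast hn0
  have : ∑ a : A, (μ : A → ℂ) a * conj ((ν : A → ℂ) a)
      = (n : ℂ) * ((n : ℂ)⁻¹ * ∑ a : A, (μ : A → ℂ) a * conj ((ν : A → ℂ) a)) := by
    field_simp
  rw [this, h]
  split_ifs <;> simp

/-- twisted character -/
def tw (μ : IrrCharacter A) (x : Subgroup.normalizer (A : Set G)) : IrrCharacter A :=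
  ⟨(μ : A → ℂ) ∘ (cj A x).toMonoidHom, IsIrrCharacter.comp_surjective μ.2 _ (cj A x).surjective⟩

omit [Fintype G] [Fintype A] [Fintype (Subgroup.normalizer (A : Set G))] in
theorem tw_apply (μ : IrrCharacter A) (x : Subgroup.normalizer (A : Set G)) (a : A) :
    (tw μ x : A → ℂ) a = (μ : A → ℂ) (cj A x a) := rfl

omit [Fintype G] [Fintype (Subgroup.normalizer (A : Set G))] in
theorem tw_eq_iff
    (hcomm : ∀ a ∈ A, ∀ b ∈ A, a * b = b * a)
    (hcent : ∀ a ∈ A, a ≠ 1 → ∀ g : G, g * a = a * g → g ∈ A)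
    (μ : IrrCharacter A) (hμ : μ ≠ triv A) (x : Subgroup.normalizer (A : Set G)) :
    tw μ x = μ ↔ (x : G) ∈ A := by
  have hcA : ∀ a b : A, a * b = b * a := fun a b => Subtype.ext (hcomm a a.2 b b.2)
  have hμ1 : (μ : A → ℂ) 1 = 1 := char_one_eq_one_of_comm hcA μ
  have hmul : ∀ a b : A, (μ : A → ℂ) (a * b) = (μ : A → ℂ) a * (μ : A → ℂ) b :=
    char_mul_of_degree_one (IrrCharacter.isCharacter μ) hμ1
  constructor
  · intro h
    by_contra hx
    apply hμ
    let φ : A → A := fun a => cj A x a * a⁻¹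
    have hinj : Function.Injective φ := by
      intro a b hab
      have h1 : cj A x (a * b⁻¹) = a * b⁻¹ := by
        have h2 : cj A x a * a⁻¹ = cj A x b * b⁻¹ := hab
        rw [map_mul, map_inv]
        have h3 : cj A x a = cj A x b * b⁻¹ * a := by rw [← h2]; group
        rw [h3, hcA (cj A x b * b⁻¹) a, hcA (cj A x b) b⁻¹]
        group
      by_contra hne
      have hne' : a * b⁻¹ ≠ 1 := fun h => hne (mul_inv_eq_one.1 h)
      apply hx
      apply hcent (a * b⁻¹ : A) (a * b⁻¹ : A).2 (fun h => hne' (Subtype.ext h))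
      have h4 := congrArg (fun z : A => (z : G)) h1
      simp only [cj_coe] at h4
      calc (x : G) * ((a * b⁻¹ : A) : G) = ((x : G) * ((a * b⁻¹ : A) : G) * (x : G)⁻¹) * x := by group
        _ = _ := by rw [h4]
    have hsurj : Function.Surjective φ := Finite.surjective_of_injective hinj
    apply Subtype.ext
    funext c
    obtain ⟨a, rfl⟩ := hsurj c
    show (μ : A → ℂ) (cj A x a * a⁻¹) = 1
    have h5 : (μ : A → ℂ) (cj A x a) = (μ : A → ℂ) a := by rw [← tw_apply, h]
    rw [hmul, h5, ← hmul, mul_inv_cancel, hμ1]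
  · intro hx
    apply Subtype.ext
    funext a
    rw [tw_apply]
    have : cj A x a = a := by
      ext
      rw [cj_coe, hcomm x hx a a.2]
      group
    rw [this]

omit [Fintype G] [Fintype A] [Fintype (Subgroup.normalizer (A : Set G))] in
theorem tw_ne_triv (μ : IrrCharacter A) (hμ : μ ≠ triv A) (x : Subgroup.normalizer (A : Set G)) :
    tw μ x ≠ triv A := by
  intro h
  apply hμ
  apply Subtype.ext
  funext a
  have := congrFun (congrArg Subtype.val h) ((cj A x).symm a)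
  rw [tw_apply, MulEquiv.apply_symm_apply] at this
  exact this

/-- the norm computation -/
theorem sum_norm (n : ℕ) (hn : Nat.card A = n) (hn0 : n ≠ 0)
    (hcomm : ∀ a ∈ A, ∀ b ∈ A, a * b = b * a)
    (hcent : ∀ a ∈ A, a ≠ 1 → ∀ g : G, g * a = a * g → g ∈ A)
    (hN : Nat.card (Subgroup.normalizer (A : Set G)) = 4 * n)
    (μ : IrrCharacter A) (hμ : μ ≠ triv A) :
    ∑ x : Subgroup.normalizer (A : Set G), ∑ a : A,
      (1 - conj ((μ : A → ℂ) a)) * conj (1 - conj ((μ : A → ℂ) (cj A x a))) = 5 * (n : ℂ) ^ 2 := by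
  classical
  have s0 : ∑ a : A, (μ : A → ℂ) a = 0 := by
    have := sumA n hn hn0 μ (triv A)
    rw [if_neg hμ] at this
    simpa [triv] using this
  have s0' : ∑ a : A, conj ((μ : A → ℂ) a) = 0 := by
    rw [← map_sum, s0, map_zero]
  have h1 : ∀ x : Subgroup.normalizer (A : Set G), ∑ a : A,
      (1 - conj ((μ : A → ℂ) a)) * conj (1 - conj ((μ : A → ℂ) (cj A x a)))
      = (n : ℂ) + if (x : G) ∈ A then (n : ℂ) else 0 := by
    intro x
    have e : ∀ a : A, (1 - conj ((μ : A → ℂ) a)) * conj (1 - conj ((μ : A → ℂ) (cj A x a)))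
        = 1 - conj ((μ : A → ℂ) a) - (μ : A → ℂ) (cj A x a)
          + (tw μ x : A → ℂ) a * conj ((μ : A → ℂ) a) := by
      intro a
      rw [tw_apply, map_sub, map_one, Complex.conj_conj]; ring
    simp only [e, Finset.sum_add_distrib, Finset.sum_sub_distrib]
    have s1 : ∑ a : A, (μ : A → ℂ) (cj A x a) = 0 := by
      rw [← s0]
      exact (cj A x).toEquiv.sum_comp (fun b => (μ : A → ℂ) b)
    rw [s0', s1, sumA n hn hn0]
    simp only [tw_eq_iff hcomm hcent μ hμ x]
    rw [Finset.sum_const, Finset.card_univ, ← Nat.card_eq_fintype_card, hn]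
    simp
  simp only [h1]
  rw [Finset.sum_add_distrib, Finset.sum_const, Finset.card_univ, ← Nat.card_eq_fintype_card, hN,
    ← Finset.sum_filter, Finset.sum_const, card_memA n hn]
  simp only [nsmul_eq_mul]
  push_cast
  ring


/-- multiplicities -/
noncomputable def mm (χ : IrrCharacter G) (μ : IrrCharacter A) : ℕ :=
  Classical.choose (IsCharacter.classInner_irr_nat (Helper74.IsCharacter.restrict (IrrCharacter.isCharacter χ) A) μ)

omit [Fintype G] [Fintype (Subgroup.normalizer (A : Set G))] in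
theorem mm_spec (χ : IrrCharacter G) (μ : IrrCharacter A) :
    classInner (fun a : A => (χ : G → ℂ) a) (μ : A → ℂ) = mm χ μ :=
  Classical.choose_spec (IsCharacter.classInner_irr_nat (Helper74.IsCharacter.restrict (IrrCharacter.isCharacter χ) A) μ)

noncomputable def vv (μ : IrrCharacter A) (χ : IrrCharacter G) : ℤ :=
  (mm χ (triv A) : ℤ) - mm χ μ

omit [Fintype G] [Fintype (Subgroup.normalizer (A : Set G))] in
theorem vv_cast (n : ℕ) (hn : Nat.card A = n) (μ : IrrCharacter A) (χ : IrrCharacter G) :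
    (vv μ χ : ℂ) = (n : ℂ)⁻¹ * ∑ a : A, (χ : G → ℂ) a * (1 - conj ((μ : A → ℂ) a)) := by
  rw [vv]
  push_cast
  rw [← mm_spec, ← mm_spec, classInner, classInner, hn, ← mul_sub, ← Finset.sum_sub_distrib]
  congr 1
  refine Finset.sum_congr rfl fun a _ => ?_
  simp [triv]
  ring

omit [Fintype G] [Fintype (Subgroup.normalizer (A : Set G))] in
theorem vv_triv_left (χ : IrrCharacter G) : vv (triv A) χ = 0 := by simp [vv]

theorem sum_vv_sq (n : ℕ) (hn : Nat.card A = n) (hn0 : n ≠ 0)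
    (hcomm : ∀ a ∈ A, ∀ b ∈ A, a * b = b * a)
    (hcent : ∀ a ∈ A, a ≠ 1 → ∀ g : G, g * a = a * g → g ∈ A)
    (hN : Nat.card (Subgroup.normalizer (A : Set G)) = 4 * n)
    (μ : IrrCharacter A) (hμ : μ ≠ triv A) :
    ∑ χ : IrrCharacter G, (vv μ χ) ^ 2 = 5 := by
  have hcA : ∀ a b : A, a * b = b * a := fun a b => Subtype.ext (hcomm a a.2 b b.2)
  have hμ1 : (μ : A → ℂ) 1 = 1 := char_one_eq_one_of_comm hcA μ
  have hn' : (n : ℂ) ≠ 0 := by exact_mod_cast hn0
  have h := sum_W n hn hcomm hcent (fun a => 1 - conj ((μ : A → ℂ) a))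
    (fun a => 1 - conj ((μ : A → ℂ) a)) (by simp [hμ1])
  rw [sum_norm n hn hn0 hcomm hcent hN μ hμ] at h
  have h2 : (((∑ χ : IrrCharacter G, (vv μ χ) ^ 2 : ℤ)) : ℂ) = 5 := by
    push_cast
    have e : ∀ χ : IrrCharacter G, ((vv μ χ : ℂ)) ^ 2 = ((n : ℂ)⁻¹) ^ 2 *
        ((∑ a : A, (χ : G → ℂ) a * (1 - conj ((μ : A → ℂ) a))) *
          conj (∑ a : A, (χ : G → ℂ) a * (1 - conj ((μ : A → ℂ) a)))) := by
      intro χ
      have c : conj (vv μ χ : ℂ) = (vv μ χ : ℂ) := by simp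
      have : ((vv μ χ : ℂ)) ^ 2 = (vv μ χ : ℂ) * conj (vv μ χ : ℂ) := by rw [c]; ring
      rw [this, vv_cast n hn, map_mul, map_inv₀, Complex.conj_natCast]
      ring
    simp only [e]
    rw [← Finset.mul_sum, h]
    field_simp
  exact_mod_cast h2

theorem sum_vv_deg (n : ℕ) (hn : Nat.card A = n)
    (hcomm : ∀ a ∈ A, ∀ b ∈ A, a * b = b * a)
    (hcent : ∀ a ∈ A, a ≠ 1 → ∀ g : G, g * a = a * g → g ∈ A)
    (μ : IrrCharacter A) :
    ∑ χ : IrrCharacter G, vv μ χ * (charDegree (χ : G → ℂ) : ℤ) = 0 := by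
  classical
  have hcA : ∀ a b : A, a * b = b * a := fun a b => Subtype.ext (hcomm a a.2 b b.2)
  have hμ1 : (μ : A → ℂ) 1 = 1 := char_one_eq_one_of_comm hcA μ
  have h := sum_W n hn hcomm hcent (fun a => 1 - conj ((μ : A → ℂ) a))
    (fun a => if a = 1 then 1 else 0) (by simp [hμ1])
  have hz : ∑ x : Subgroup.normalizer (A : Set G), ∑ a : A,
      (1 - conj ((μ : A → ℂ) a)) * conj ((if cj A x a = 1 then 1 else 0 : ℂ)) = 0 := by
    refine Finset.sum_eq_zero fun x _ => Finset.sum_eq_zero fun a _ => ?_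
    by_cases ha : a = 1
    · rw [ha, hμ1]; simp
    · have : cj A x a ≠ 1 := fun h => ha (by simpa using h)
      rw [if_neg this]; simp
  rw [hz] at h
  have h2 : (((∑ χ : IrrCharacter G, vv μ χ * (charDegree (χ : G → ℂ) : ℤ) : ℤ)) : ℂ) = 0 := by
    push_cast
    have e : ∀ χ : IrrCharacter G, (vv μ χ : ℂ) * (charDegree (χ : G → ℂ) : ℂ) = (n : ℂ)⁻¹ *
        ((∑ a : A, (χ : G → ℂ) a * (1 - conj ((μ : A → ℂ) a))) *
          conj (∑ a : A, (χ : G → ℂ) a * (if a = 1 then 1 else 0))) := by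
      intro χ
      have c : ∑ a : A, (χ : G → ℂ) a * (if a = 1 then 1 else 0) = (charDegree (χ : G → ℂ) : ℂ) := by
        rw [IsCharacter.charDegree_eq (IrrCharacter.isCharacter χ)]
        simp
      rw [c, Complex.conj_natCast, vv_cast n hn]
      ring
    simp only [e]
    rw [← Finset.mul_sum, h, mul_zero]
  exact_mod_cast h2

omit [Fintype G] [Fintype (Subgroup.normalizer (A : Set G))] in
theorem vv_triv_right (μ : IrrCharacter A) (hμ : μ ≠ triv A) : vv μ (triv G) = 1 := by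
  have h1 : mm (triv G) (triv A) = 1 := by
    have := mm_spec (A := A) (triv G) (triv A)
    have e : classInner (fun a : A => (triv G : G → ℂ) a) (triv A : A → ℂ) = 1 :=
      classInner_irr_self (triv A)
    rw [e] at this
    exact_mod_cast this.symm
  have h2 : mm (triv G) μ = 0 := by
    have := mm_spec (A := A) (triv G) μ
    have e : classInner (fun a : A => (triv G : G → ℂ) a) (μ : A → ℂ) = 0 :=
      classInner_irr_ne (χ := triv A) (ψ := μ) (Ne.symm hμ)
    rw [e] at this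
    exact_mod_cast this.symm
  rw [vv, h1, h2]; norm_num

theorem abs_vv_le (n : ℕ) (hn : Nat.card A = n) (hn0 : n ≠ 0)
    (hcomm : ∀ a ∈ A, ∀ b ∈ A, a * b = b * a)
    (hcent : ∀ a ∈ A, a ≠ 1 → ∀ g : G, g * a = a * g → g ∈ A)
    (hN : Nat.card (Subgroup.normalizer (A : Set G)) = 4 * n)
    (μ : IrrCharacter A) (hμ : μ ≠ triv A) (χ : IrrCharacter G) : |vv μ χ| ≤ 1 := by
  classical
  by_contra hc
  push Not at hc
  have h5 := sum_vv_sq n hn hn0 hcomm hcent hN μ hμ
  have hd := sum_vv_deg n hn hcomm hcent μ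
  have h1 := vv_triv_right (G := G) μ hμ
  have hne : χ ≠ triv G := by
    intro h; rw [h, h1] at hc; norm_num at hc
  have hsq : 4 ≤ (vv μ χ) ^ 2 := by
    rw [← sq_abs]; nlinarith
  rw [← Finset.add_sum_erase _ _ (Finset.mem_univ (triv G)),
    ← Finset.add_sum_erase _ _ (Finset.mem_erase.2 ⟨hne, Finset.mem_univ χ⟩), h1] at h5
  have hnn : ∀ ψ ∈ (Finset.univ.erase (triv G)).erase χ, 0 ≤ (vv μ ψ) ^ 2 :=
    fun ψ _ => sq_nonneg _
  have hs := Finset.sum_nonneg hnn
  have hz : ∑ ψ ∈ (Finset.univ.erase (triv G)).erase χ, (vv μ ψ) ^ 2 = 0 := by linarith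
  have h4 : (vv μ χ) ^ 2 = 4 := by linarith
  have hz' := (Finset.sum_eq_zero_iff_of_nonneg hnn).1 hz
  rw [← Finset.add_sum_erase _ _ (Finset.mem_univ (triv G)),
    ← Finset.add_sum_erase _ _ (Finset.mem_erase.2 ⟨hne, Finset.mem_univ χ⟩), h1] at hd
  have hz2 : ∑ ψ ∈ (Finset.univ.erase (triv G)).erase χ,
      vv μ ψ * (charDegree (ψ : G → ℂ) : ℤ) = 0 := by
    refine Finset.sum_eq_zero fun ψ hψ => ?_
    have := hz' ψ hψ
    rw [pow_eq_zero_iff (by norm_num)] at this
    rw [this, zero_mul]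
  rw [hz2] at hd
  have hdeg : charDegree ((triv G : IrrCharacter G) : G → ℂ) = 1 := by
    have := IsCharacter.charDegree_eq (IrrCharacter.isCharacter (triv G))
    have e : ((triv G : IrrCharacter G) : G → ℂ) 1 = 1 := rfl
    rw [e] at this
    exact_mod_cast this
  rw [hdeg] at hd
  have h6 : (vv μ χ - 2) * (vv μ χ + 2) = 0 := by ring_nf; linarith
  rcases mul_eq_zero.1 h6 with h | h
  · have : vv μ χ = 2 := by linarith
    rw [this] at hd
    omega
  · have : vv μ χ = -2 := by linarith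
    rw [this] at hd
    omega


omit [Fintype (Subgroup.normalizer (A : Set G))] in
theorem res_expand (χ : IrrCharacter G) (a : A) :
    (χ : G → ℂ) a = ∑ μ : IrrCharacter A, (mm χ μ : ℂ) * (μ : A → ℂ) a := by
  have h := congrFun (IsCharacter.eq_sum_classInner
    (Helper74.IsCharacter.restrict (IrrCharacter.isCharacter χ) A)) a
  simp only [Finset.sum_apply, Pi.smul_apply, smul_eq_mul, mm_spec] at h
  exact h

omit [Fintype (Subgroup.normalizer (A : Set G))] in
theorem sum_mm (hcomm : ∀ a ∈ A, ∀ b ∈ A, a * b = b * a) (χ : IrrCharacter G) :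
    ∑ μ : IrrCharacter A, (mm χ μ : ℤ) = (charDegree (χ : G → ℂ) : ℤ) := by
  have hcA : ∀ a b : A, a * b = b * a := fun a b => Subtype.ext (hcomm a a.2 b b.2)
  have h := res_expand (A := A) χ 1
  simp only [char_one_eq_one_of_comm hcA, mul_one] at h
  have h2 : ((∑ μ : IrrCharacter A, (mm χ μ : ℤ) : ℤ) : ℂ) = ((charDegree (χ : G → ℂ) : ℤ) : ℂ) := by
    push_cast
    rw [IsCharacter.charDegree_eq (IrrCharacter.isCharacter χ), ← h]
    rfl
  exact_mod_cast h2

omit [Fintype (Subgroup.normalizer (A : Set G))] in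
theorem sum_vv_all (n : ℕ) (hn : Nat.card A = n) (hcomm : ∀ a ∈ A, ∀ b ∈ A, a * b = b * a)
    (χ : IrrCharacter G) :
    ∑ μ : IrrCharacter A, vv μ χ = (n : ℤ) * (mm χ (triv A) : ℤ) - (charDegree (χ : G → ℂ) : ℤ) := by
  have hcA : ∀ a b : A, a * b = b * a := fun a b => Subtype.ext (hcomm a a.2 b b.2)
  simp only [vv]
  rw [Finset.sum_sub_distrib, sum_mm hcomm, Finset.sum_const, Finset.card_univ,
    ← Nat.card_eq_fintype_card, card_irr_of_comm hcA, hn]
  simp

omit [Fintype (Subgroup.normalizer (A : Set G))] in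
open scoped Classical in
theorem sum_vv_all_cast (n : ℕ) (hn : Nat.card A = n) (hn0 : n ≠ 0)
    (hcomm : ∀ a ∈ A, ∀ b ∈ A, a * b = b * a) (χ : IrrCharacter G) :
    ((∑ μ : IrrCharacter A, vv μ χ : ℤ) : ℂ)
      = ∑ a : A, (χ : G → ℂ) a * (if a = 1 then 0 else 1) := by
  have hn' : (n : ℂ) ≠ 0 := by exact_mod_cast hn0
  rw [sum_vv_all n hn hcomm]
  push_cast
  rw [← mm_spec, classInner, hn, IsCharacter.charDegree_eq (IrrCharacter.isCharacter χ)]
  have e : ∀ a : A, (χ : G → ℂ) a * (if a = 1 then 0 else 1 : ℂ)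
      = (χ : G → ℂ) a - (χ : G → ℂ) a * (if a = 1 then 1 else 0) := by
    intro a; split_ifs <;> ring
  simp only [e, Finset.sum_sub_distrib]
  have e2 : ∑ a : A, (χ : G → ℂ) a * (if a = 1 then 1 else 0 : ℂ) = (χ : G → ℂ) 1 := by simp
  rw [e2]
  simp only [triv, map_one, mul_one]
  field_simp

theorem sum_S1_sq (n : ℕ) (hn : Nat.card A = n) (hn0 : n ≠ 0)
    (hcomm : ∀ a ∈ A, ∀ b ∈ A, a * b = b * a)
    (hcent : ∀ a ∈ A, a ≠ 1 → ∀ g : G, g * a = a * g → g ∈ A)
    (hN : Nat.card (Subgroup.normalizer (A : Set G)) = 4 * n) :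
    ∑ χ : IrrCharacter G, (∑ μ : IrrCharacter A, vv μ χ) ^ 2 = 4 * (n : ℤ) * ((n : ℤ) - 1) := by
  classical
  have h := sum_W n hn hcomm hcent (fun a => if a = 1 then 0 else 1)
    (fun a => if a = 1 then 0 else 1) (by simp)
  have hr : ∑ x : Subgroup.normalizer (A : Set G), ∑ a : A,
      (if a = 1 then 0 else 1 : ℂ) * conj ((if cj A x a = 1 then 0 else 1 : ℂ))
      = 4 * (n : ℂ) * ((n : ℂ) - 1) := by
    have e : ∀ x : Subgroup.normalizer (A : Set G), ∑ a : A,
        (if a = 1 then 0 else 1 : ℂ) * conj ((if cj A x a = 1 then 0 else 1 : ℂ))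
        = (n : ℂ) - 1 := by
      intro x
      have e1 : ∀ a : A, (if a = 1 then 0 else 1 : ℂ) * conj ((if cj A x a = 1 then 0 else 1 : ℂ))
          = 1 - (if a = 1 then 1 else 0) := by
        intro a
        by_cases ha : a = 1
        · simp [ha]
        · have : cj A x a ≠ 1 := fun h => ha (by simpa using h)
          simp [ha]
      simp only [e1, Finset.sum_sub_distrib]
      rw [Finset.sum_const, Finset.card_univ, ← Nat.card_eq_fintype_card, hn]
      simp
    simp only [e]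
    rw [Finset.sum_const, Finset.card_univ, ← Nat.card_eq_fintype_card, hN]
    simp
  rw [hr] at h
  have h2 : ((∑ χ : IrrCharacter G, (∑ μ : IrrCharacter A, vv μ χ) ^ 2 : ℤ) : ℂ)
      = ((4 * (n : ℤ) * ((n : ℤ) - 1) : ℤ) : ℂ) := by
    rw [Int.cast_sum]
    have e : ∀ χ : IrrCharacter G, (((∑ μ : IrrCharacter A, vv μ χ) ^ 2 : ℤ) : ℂ)
        = (∑ a : A, (χ : G → ℂ) a * (if a = 1 then 0 else 1)) *
          conj (∑ a : A, (χ : G → ℂ) a * (if a = 1 then 0 else 1)) := by
      intro χ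
      rw [← sum_vv_all_cast n hn hn0 hcomm χ]
      have c : conj ((∑ μ : IrrCharacter A, vv μ χ : ℤ) : ℂ) = ((∑ μ : IrrCharacter A, vv μ χ : ℤ) : ℂ) := by
        simp
      rw [c, Int.cast_pow]; ring
    simp only [e]
    rw [h]
    push_cast
    ring
  exact_mod_cast h2

omit [Fintype (Subgroup.normalizer (A : Set G))] in
theorem vv_tw (μ : IrrCharacter A) (x : Subgroup.normalizer (A : Set G)) (χ : IrrCharacter G) :
    vv (tw μ x) χ = vv μ χ := by
  have h : mm χ (tw μ x) = mm χ μ := by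
    have h1 : ((mm χ (tw μ x) : ℕ) : ℂ) = ((mm χ μ : ℕ) : ℂ) := by
      rw [← mm_spec, ← mm_spec, classInner, classInner]
      congr 1
      rw [← (cj A x).toEquiv.sum_comp (fun b => (χ : G → ℂ) b * conj ((μ : A → ℂ) b))]
      refine Finset.sum_congr rfl fun a _ => ?_
      rw [tw_apply]
      show _ = (χ : G → ℂ) ((cj A x a : A) : G) * conj ((μ : A → ℂ) (cj A x a))
      rw [cj_coe, IsIrrCharacter.isClassFunction χ.2 (a : G) (x : G)]
    exact_mod_cast h1
  rw [vv, vv, h]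

theorem four_le (n : ℕ) (hn : Nat.card A = n) (hn0 : n ≠ 0)
    (hcomm : ∀ a ∈ A, ∀ b ∈ A, a * b = b * a)
    (hcent : ∀ a ∈ A, a ≠ 1 → ∀ g : G, g * a = a * g → g ∈ A)
    (hN : Nat.card (Subgroup.normalizer (A : Set G)) = 4 * n)
    (μ : IrrCharacter A) (hμ : μ ≠ triv A) (χ : IrrCharacter G) (hv : vv μ χ ≠ 0) :
    4 ≤ ∑ ν : IrrCharacter A, (vv ν χ) ^ 2 := by
  classical
  have hfib : ∀ ν ∈ Finset.image (tw μ) (Finset.univ : Finset (Subgroup.normalizer (A : Set G))),
      (Finset.univ.filter (fun x : Subgroup.normalizer (A : Set G) => tw μ x = ν)).card ≤ n := by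
    intro ν hν
    obtain ⟨y, -, rfl⟩ := Finset.mem_image.1 hν
    rw [← card_memA (A := A) n hn]
    refine le_trans (Finset.card_le_card ?_) (Finset.card_image_le (f := fun z => z * y))
    intro x hx
    rw [Finset.mem_filter] at hx
    rw [Finset.mem_image]
    refine ⟨x * y⁻¹, ?_, by group⟩
    rw [Finset.mem_filter]
    refine ⟨Finset.mem_univ _, ?_⟩
    rw [← tw_eq_iff hcomm hcent μ hμ]
    apply Subtype.ext
    funext a
    have h1 := congrFun (congrArg Subtype.val hx.2) (cj A y⁻¹ a)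
    rw [tw_apply, tw_apply] at h1
    rw [tw_apply]
    have e1 : cj A x (cj A y⁻¹ a) = cj A (x * y⁻¹) a := by
      ext; simp only [cj_coe]; push_cast; group
    have e2 : cj A y (cj A y⁻¹ a) = a := by
      ext; simp only [cj_coe]; push_cast; group
    rw [e1, e2] at h1
    exact h1
  have hc := Finset.card_le_mul_card_image (f := tw μ)
    (Finset.univ : Finset (Subgroup.normalizer (A : Set G))) n hfib
  rw [Finset.card_univ, ← Nat.card_eq_fintype_card, hN] at hc
  have h4 : 4 ≤ (Finset.image (tw μ)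
      (Finset.univ : Finset (Subgroup.normalizer (A : Set G)))).card := by
    have : n * 4 ≤ n * (Finset.image (tw μ)
      (Finset.univ : Finset (Subgroup.normalizer (A : Set G)))).card := by linarith
    exact Nat.le_of_mul_le_mul_left this (Nat.pos_of_ne_zero hn0)
  have h1 : (1 : ℤ) ≤ (vv μ χ) ^ 2 := by
    have : 0 < (vv μ χ) ^ 2 := by positivity
    linarith
  calc (4 : ℤ) ≤ ((Finset.image (tw μ)
      (Finset.univ : Finset (Subgroup.normalizer (A : Set G)))).card : ℤ) := by exact_mod_cast h4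
    _ = ∑ _ν ∈ Finset.image (tw μ)
      (Finset.univ : Finset (Subgroup.normalizer (A : Set G))), (1 : ℤ) := by simp
    _ ≤ ∑ ν ∈ Finset.image (tw μ)
      (Finset.univ : Finset (Subgroup.normalizer (A : Set G))), (vv ν χ) ^ 2 := by
        refine Finset.sum_le_sum fun ν hν => ?_
        obtain ⟨y, -, rfl⟩ := Finset.mem_image.1 hν
        rw [vv_tw]; exact h1
    _ ≤ ∑ ν : IrrCharacter A, (vv ν χ) ^ 2 :=
        Finset.sum_le_sum_of_subset_of_nonneg (Finset.subset_univ _) (fun _ _ _ => sq_nonneg _)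

omit [Fintype (Subgroup.normalizer (A : Set G))] in
theorem vanish_iff (n : ℕ) (hn : Nat.card A = n)
    (hcomm : ∀ a ∈ A, ∀ b ∈ A, a * b = b * a) (χ : IrrCharacter G) :
    (∃ a ∈ A, a ≠ 1 ∧ (χ : G → ℂ) a ≠ 0) ↔ ∃ μ : IrrCharacter A, vv μ χ ≠ 0 := by
  classical
  have hcA : ∀ a b : A, a * b = b * a := fun a b => Subtype.ext (hcomm a a.2 b b.2)
  constructor
  · rintro ⟨a, haA, ha1, hχ⟩
    by_contra hc
    push Not at hc
    apply hχ
    have hm : ∀ μ : IrrCharacter A, mm χ μ = mm χ (triv A) := by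
      intro μ
      have := hc μ
      rw [vv] at this
      omega
    have h := res_expand (A := A) χ ⟨a, haA⟩
    simp only [hm] at h
    rw [← Finset.mul_sum] at h
    have hco := column_orthogonality (G := A) ⟨a, haA⟩ 1
    have hnc : ¬ IsConj (⟨a, haA⟩ : A) 1 := by
      intro h
      rw [isConj_comm, isConj_one_right] at h
      exact ha1 (congrArg Subtype.val h)
    rw [if_neg hnc] at hco
    simp only [char_one_eq_one_of_comm hcA, map_one, mul_one] at hco
    rw [hco, mul_zero] at h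
    exact h
  · rintro ⟨μ, hμ⟩
    by_contra hc
    push Not at hc
    apply hμ
    have hμ1 : (μ : A → ℂ) 1 = 1 := char_one_eq_one_of_comm hcA μ
    have h : (vv μ χ : ℂ) = 0 := by
      rw [vv_cast n hn]
      rw [Finset.sum_eq_zero, mul_zero]
      intro a _
      by_cases ha : a = 1
      · rw [ha, hμ1]; simp
      · rw [hc a a.2 (fun h => ha (Subtype.ext h)), zero_mul]
    exact_mod_cast h


open scoped Classical in
theorem sum_kappa {ι : Type*} [Fintype ι] (t : ι) [Fintype {μ : ι // μ ≠ t}] (F : ι → ℤ)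
    (h : F t = 0) :
    ∑ μ : {μ : ι // μ ≠ t}, F μ = ∑ μ, F μ := by
  rw [← Finset.sum_subtype (Finset.univ.filter (fun μ : ι => μ ≠ t)) (by simp) F,
    Finset.sum_filter_of_ne]
  intro x _ hx h'
  exact hx (h' ▸ h)

end T1aux

/-! ## [T1] the integer vectors `v μ χ = [χ_A, 1] - [χ_A, μ]` -/
open T1aux Cfsg.Agent.Lib.Helper80 in
theorem torus_vectors.{u} {G : Type u} [Group G] [Fintype G] (A : Subgroup G) (n : ℕ)
    (hn : Nat.card A = n) (hodd : Odd n) (hn1 : 1 < n)
    (hcomm : ∀ a ∈ A, ∀ b ∈ A, a * b = b * a)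
    (hcent : ∀ a ∈ A, a ≠ 1 → ∀ g : G, g * a = a * g → g ∈ A)
    (hN : Nat.card (Subgroup.normalizer (A : Set G)) = 4 * n) :
    ∃ (κ : Type u) (_ : Fintype κ) (v : κ → IrrCharacter G → ℤ),
      Fintype.card κ = n - 1 ∧
      (∀ μ χ, |v μ χ| ≤ 1) ∧
      (∑ χ, (∑ μ, v μ χ) ^ 2 = 4 * (n : ℤ) * ((n : ℤ) - 1)) ∧
      (∑ χ, ∑ μ, (v μ χ) ^ 2 = 5 * ((n : ℤ) - 1)) ∧
      (∀ χ, (∃ μ, v μ χ ≠ 0) → 4 ≤ ∑ μ, (v μ χ) ^ 2) ∧
      (∀ χ : IrrCharacter G, ∃ k : ℤ, (charDegree (χ : G → ℂ) : ℤ) = n * k - ∑ μ, v μ χ) ∧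
      (∀ χ : IrrCharacter G, (∃ a ∈ A, a ≠ 1 ∧ (χ : G → ℂ) a ≠ 0) ↔ ∃ μ, v μ χ ≠ 0) := by
  classical
  haveI : Fintype A := Fintype.ofFinite A
  haveI : Fintype (Subgroup.normalizer (A : Set G)) := Fintype.ofFinite _
  have hn0 : n ≠ 0 := by omega
  have hcA : ∀ a b : A, a * b = b * a := fun a b => Subtype.ext (hcomm a a.2 b b.2)
  have hcard : Fintype.card {μ : IrrCharacter A // μ ≠ triv A} = n - 1 := by
    rw [Fintype.card_subtype, Finset.filter_ne', Finset.card_erase_of_mem (Finset.mem_univ _),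
      Finset.card_univ, ← Nat.card_eq_fintype_card, card_irr_of_comm hcA, hn]
  refine ⟨{μ : IrrCharacter A // μ ≠ triv A}, inferInstance, fun μ χ => vv μ.1 χ, hcard,
    ?_, ?_, ?_, ?_, ?_, ?_⟩
  · intro μ χ
    exact abs_vv_le n hn hn0 hcomm hcent hN μ.1 μ.2 χ
  · have e : ∀ χ : IrrCharacter G, ∑ μ : {μ : IrrCharacter A // μ ≠ triv A}, vv μ.1 χ
        = ∑ μ : IrrCharacter A, vv μ χ :=
      fun χ => sum_kappa (triv A) (fun μ => vv μ χ) (vv_triv_left χ)
    simp only [e]
    exact sum_S1_sq n hn hn0 hcomm hcent hN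
  · rw [Finset.sum_comm]
    have e : ∀ μ : {μ : IrrCharacter A // μ ≠ triv A}, ∑ χ : IrrCharacter G, (vv μ.1 χ) ^ 2 = 5 :=
      fun μ => sum_vv_sq n hn hn0 hcomm hcent hN μ.1 μ.2
    simp only [e]
    rw [Finset.sum_const, Finset.card_univ, hcard]
    have : ((n - 1 : ℕ) : ℤ) = (n : ℤ) - 1 := by push_cast [Nat.one_le_of_lt hn1]; ring
    rw [nsmul_eq_mul, this]; ring
  · rintro χ ⟨μ, hμ⟩
    beta_reduce
    rw [sum_kappa (triv A) (fun μ => (vv μ χ) ^ 2) (by simp [vv_triv_left])]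
    exact four_le n hn hn0 hcomm hcent hN μ.1 μ.2 χ hμ
  · intro χ
    refine ⟨(mm χ (triv A) : ℤ), ?_⟩
    beta_reduce
    rw [sum_kappa (triv A) (fun μ => vv μ χ) (vv_triv_left χ), sum_vv_all n hn hcomm]
    ring
  · intro χ
    rw [vanish_iff n hn hcomm χ]
    constructor
    · rintro ⟨μ, hμ⟩
      refine ⟨⟨μ, ?_⟩, hμ⟩
      intro h
      rw [h, vv_triv_left] at hμ
      exact hμ rfl
    · rintro ⟨μ, hμ⟩
      exact ⟨μ.1, hμ⟩

end Cfsg.Agent.Lib.Helper4.SzDeg
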