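import Mathlib

set_option autoImplicit false

namespace Cfsg.Agent.Lib.Helper4.SzDeg

/-! ## [T2] pure arithmetic of the torus count -/
open scoped Classical in
theorem torus_arith {ι κ : Type*} [Fintype ι] [Fintype κ] (n : ℕ) (hn1 : 1 < n) (hodd : Odd n)
    (hκ : Fintype.card κ = n - 1) (v : κ → ι → ℤ) (deg : ι → ℕ)
    (v1 : ∀ μ χ, |v μ χ| ≤ 1)
    (v2 : ∑ χ, (∑ μ, v μ χ) ^ 2 = 4 * (n : ℤ) * ((n : ℤ) - 1))
    (v3 : ∑ χ, ∑ μ, (v μ χ) ^ 2 = 5 * ((n : ℤ) - 1))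
    (v4 : ∀ χ, (∃ μ, v μ χ ≠ 0) → 4 ≤ ∑ μ, (v μ χ) ^ 2)
    (v6 : ∀ χ, ∃ k : ℤ, (deg χ : ℤ) = n * k - ∑ μ, v μ χ) :
    4 * (Finset.univ.filter (fun χ : ι => ∃ μ, v μ χ ≠ 0)).card ≤ n + 15 ∧
    (4 * (Finset.univ.filter (fun χ : ι => ∃ μ, v μ χ ≠ 0)).card = n + 15 →
      ∀ χ : ι, (∃ μ, v μ χ ≠ 0) → Nat.Coprime (deg χ) n) := by
  obtain ⟨NN, hNN⟩ : ∃ NN, NN = Finset.univ.filter (fun χ : ι => ∃ μ, v μ χ ≠ 0) := ⟨_, rfl⟩
  rw [← hNN]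
  obtain ⟨N, hN⟩ : ∃ N : ℤ, N = (n : ℤ) := ⟨_, rfl⟩
  have hN1 : 1 < N := by rw [hN]; exact_mod_cast hn1
  rw [← hN] at v2 v3
  obtain ⟨C, hC⟩ : ∃ C : ι → ℤ, C = fun χ => ∑ μ, (v μ χ) ^ 2 := ⟨_, rfl⟩
  obtain ⟨Ct, hCt⟩ : ∃ Ct : ι → ℤ, Ct = fun χ => ∑ μ, v μ χ := ⟨_, rfl⟩
  have hsqabs : ∀ μ χ, (v μ χ) ^ 2 = |v μ χ| := by
    intro μ χ
    have h := v1 μ χ
    have h0 := abs_nonneg (v μ χ)
    rw [← sq_abs]
    have : |v μ χ| = 0 ∨ |v μ χ| = 1 := by omega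
    rcases this with h | h <;> rw [h] <;> norm_num
  have hCle : ∀ χ, C χ ≤ N - 1 := by
    intro χ
    have : C χ ≤ ∑ _μ : κ, (1 : ℤ) := by
      rw [hC]
      apply Finset.sum_le_sum
      intro μ _
      rw [hsqabs]; exact v1 μ χ
    rw [Finset.sum_const, Finset.card_univ, hκ] at this
    have h2 : ((n - 1 : ℕ) : ℤ) = N - 1 := by rw [hN]; push_cast [Nat.one_le_of_lt hn1]; ring
    simpa [h2] using this
  have hC0' : ∀ χ, 0 ≤ C χ := by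
    intro χ; rw [hC]; exact Finset.sum_nonneg fun μ _ => sq_nonneg _
  have hCtC : ∀ χ, Ct χ ^ 2 ≤ C χ ^ 2 := by
    intro χ
    rw [sq_le_sq, abs_of_nonneg (hC0' χ)]
    rw [hC, hCt]
    simp only [hsqabs]
    exact Finset.abs_sum_le_sum_abs _ _
  have hC0 : ∀ χ, χ ∉ NN → C χ = 0 := by
    intro χ hχ
    rw [hNN, Finset.mem_filter] at hχ
    push Not at hχ
    have := hχ (Finset.mem_univ _)
    rw [hC]
    exact Finset.sum_eq_zero fun μ _ => by rw [this μ]; norm_num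
  have hC4 : ∀ χ ∈ NN, 4 ≤ C χ := by
    intro χ hχ
    rw [hNN, Finset.mem_filter] at hχ
    rw [hC]; exact v4 χ hχ.2
  have e1 : ∑ χ ∈ NN, C χ = 5 * (N - 1) := by
    rw [Finset.sum_subset (Finset.subset_univ _) (fun χ _ h => hC0 χ h), ← v3, hC]
  have e2 : ∑ χ ∈ NN, C χ ^ 2 = ∑ χ, C χ ^ 2 := by
    rw [Finset.sum_subset (Finset.subset_univ _) (fun χ _ h => by rw [hC0 χ h]; norm_num)]
  have e3 : ∑ χ, Ct χ ^ 2 = 4 * N * (N - 1) := by rw [← v2, hCt]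
  have f1 : ∀ χ ∈ NN, 0 ≤ (C χ - 4) * (N - 1 - C χ) := by
    intro χ hχ
    exact mul_nonneg (by linarith [hC4 χ hχ]) (by linarith [hCle χ])
  have f2 : ∀ χ ∈ (Finset.univ : Finset ι), 0 ≤ C χ ^ 2 - Ct χ ^ 2 := by
    intro χ _
    linarith [hCtC χ]
  have key : ∑ χ ∈ NN, (C χ - 4) * (N - 1 - C χ) + ∑ χ, (C χ ^ 2 - Ct χ ^ 2)
      = (N - 1) * (N + 15 - 4 * (NN.card : ℤ)) := by
    have g1 : ∑ χ ∈ NN, (C χ - 4) * (N - 1 - C χ)
        = (N + 3) * ∑ χ ∈ NN, C χ - ∑ χ ∈ NN, C χ ^ 2 - 4 * (N - 1) * (NN.card : ℤ) := by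
      rw [Finset.mul_sum, ← Finset.sum_sub_distrib]
      have : 4 * (N - 1) * (NN.card : ℤ) = ∑ _χ ∈ NN, 4 * (N - 1) := by
        rw [Finset.sum_const, nsmul_eq_mul]; ring
      rw [this, ← Finset.sum_sub_distrib]
      exact Finset.sum_congr rfl fun χ _ => by ring
    rw [g1, Finset.sum_sub_distrib, e1, e2, e3]
    ring
  have s1 := Finset.sum_nonneg f1
  have s2 := Finset.sum_nonneg f2
  constructor
  · have h : 0 ≤ (N - 1) * (N + 15 - 4 * (NN.card : ℤ)) := by rw [← key]; linarith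
    have h' : 0 ≤ N + 15 - 4 * (NN.card : ℤ) := by
      by_contra hc
      push Not at hc
      have := mul_neg_of_pos_of_neg (by linarith : 0 < N - 1) hc
      linarith
    rw [hN] at h'
    have : (4 * NN.card : ℤ) ≤ (n + 15 : ℤ) := by linarith
    exact_mod_cast this
  · intro heq χ hχ
    have hχN : χ ∈ NN := by rw [hNN, Finset.mem_filter]; exact ⟨Finset.mem_univ _, hχ⟩
    have heq' : N + 15 - 4 * (NN.card : ℤ) = 0 := by
      rw [hN]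
      have : (4 * NN.card : ℤ) = (n + 15 : ℤ) := by exact_mod_cast heq
      linarith
    rw [heq', mul_zero] at key
    have z1 : ∑ χ ∈ NN, (C χ - 4) * (N - 1 - C χ) = 0 := by linarith
    have z2 : ∑ χ, (C χ ^ 2 - Ct χ ^ 2) = 0 := by linarith
    have t1 := (Finset.sum_eq_zero_iff_of_nonneg f1).1 z1 χ hχN
    have t2 := (Finset.sum_eq_zero_iff_of_nonneg f2).1 z2 χ (Finset.mem_univ _)
    obtain ⟨k, hk⟩ := v6 χ
    have hk' : (deg χ : ℤ) = N * k - Ct χ := by rw [hk, hN, hCt]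
    obtain ⟨j, hj⟩ := hodd
    have hj' : N = 2 * (j : ℤ) + 1 := by rw [hN, hj]; push_cast; ring
    rw [← Nat.isCoprime_iff_coprime, ← hN, hk']
    have t3 : (Ct χ - C χ) * (Ct χ + C χ) = 0 := by ring_nf; ring_nf at t2; linarith
    rcases mul_eq_zero.1 t1 with h4 | h4 <;> rcases mul_eq_zero.1 t3 with h5 | h5
    · have : Ct χ = 4 := by linarith
      rw [this]
      refine ⟨(j : ℤ) ^ 2 + j, N - ((j : ℤ) ^ 2 + j) * k, ?_⟩
      rw [hj']; ring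
    · have : Ct χ = -4 := by linarith
      rw [this]
      refine ⟨-((j : ℤ) ^ 2 + j), N + ((j : ℤ) ^ 2 + j) * k, ?_⟩
      rw [hj']; ring
    · have : Ct χ = N - 1 := by linarith
      rw [this]
      refine ⟨1, -(k - 1), ?_⟩
      ring
    · have : Ct χ = -(N - 1) := by linarith
      rw [this]
      refine ⟨-1, k + 1, ?_⟩
      ring

end Cfsg.Agent.Lib.Helper4.SzDeg
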