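import Cfsg.Agent.Lib.Helper4.SzDeg.IntegB
import Cfsg.Agent.Lib.Helper4.SzDeg.T1
import Cfsg.Agent.Lib.Helper4.SzDeg.T2
import Cfsg.Agent.Lib.Helper4.SzDeg.D
import Cfsg.Agent.Lib.Helper4.SzDeg.L
import Cfsg.Agent.Lib.Helper4.SzDeg.P
import Cfsg.Agent.Lib.Helper4.SzDeg.C

/-! Integration step of S4775: the axioms `Ax` imply the degree facts. -/

set_option autoImplicit false
open Cfsg

namespace Cfsg.Agent.Lib.Helper4.SzDeg

open scoped ComplexConjugate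

open scoped Classical in
/-- [T1] + [T2] packaged. -/
theorem torus_pack {G : Type*} [Group G] [Fintype G] (A : Subgroup G) (n : ℕ)
    (hn : Nat.card A = n) (hodd : Odd n) (hn1 : 1 < n)
    (hcomm : ∀ a ∈ A, ∀ b ∈ A, a * b = b * a)
    (hcent : ∀ a ∈ A, a ≠ 1 → ∀ g : G, g * a = a * g → g ∈ A)
    (hN : Nat.card (Subgroup.normalizer (A : Set G)) = 4 * n) :
    4 * (Finset.univ.filter (fun χ : IrrCharacter G => ∃ a ∈ A, a ≠ 1 ∧ (χ : G → ℂ) a ≠ 0)).card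
      ≤ n + 15 ∧
    (4 * (Finset.univ.filter (fun χ : IrrCharacter G => ∃ a ∈ A, a ≠ 1 ∧ (χ : G → ℂ) a ≠ 0)).card
      = n + 15 → ∀ χ ∈ Finset.univ.filter (fun χ : IrrCharacter G => ∃ a ∈ A, a ≠ 1 ∧ (χ : G → ℂ) a ≠ 0),
        Nat.Coprime (charDegree (χ : G → ℂ)) n) ∧
    (∀ χ, χ ∉ Finset.univ.filter (fun χ : IrrCharacter G => ∃ a ∈ A, a ≠ 1 ∧ (χ : G → ℂ) a ≠ 0) →
      n ∣ charDegree (χ : G → ℂ)) := by
  obtain ⟨κ, _, v, hκ, v1, v2, v3, v4, v6, v5⟩ := torus_vectors A n hn hodd hn1 hcomm hcent hN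
  have hT := torus_arith n hn1 hodd hκ v (fun χ : IrrCharacter G => charDegree (χ : G → ℂ))
    v1 v2 v3 v4 v6
  have hfil : Finset.univ.filter (fun χ : IrrCharacter G => ∃ a ∈ A, a ≠ 1 ∧ (χ : G → ℂ) a ≠ 0)
      = Finset.univ.filter (fun χ : IrrCharacter G => ∃ μ, v μ χ ≠ 0) :=
    Finset.filter_congr fun χ _ => v5 χ
  rw [hfil]
  refine ⟨hT.1, fun h χ hχ => hT.2 h χ (Finset.mem_filter.1 hχ).2, fun χ hχ => ?_⟩
  have h0 : ∀ μ, v μ χ = 0 := by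
    intro μ
    by_contra h
    exact hχ (Finset.mem_filter.2 ⟨Finset.mem_univ _, μ, h⟩)
  obtain ⟨k, hk⟩ := v6 χ
  rw [Finset.sum_congr rfl (fun μ _ => h0 μ), Finset.sum_const_zero, sub_zero] at hk
  exact Int.natCast_dvd_natCast.1 ⟨k, hk⟩

/-- average of a function of `type (D, c)` -/
theorem avg_of_type {G : Type*} [Group G] (S Q : Subgroup G) [Fintype S] (hS : S ≤ Q) (s : ℕ)
    (hs : Nat.card S = s) (hs0 : 0 < s) (f : G → ℂ) (D c k : ℕ) (h1 : f 1 = D)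
    (hc : ∀ u ∈ Q, u ≠ 1 → f u = c) (hk : D + (s - 1) * c = s * k) :
    (Nat.card S : ℂ)⁻¹ * ∑ x : S, f x = k := by
  rw [sum_const_off_one S f c (fun u hu hu1 => hc u (hS hu) hu1), hs, h1]
  have hs' : (s : ℂ) ≠ 0 := by exact_mod_cast hs0.ne'
  have h2 : (D : ℂ) + ((s : ℂ) - 1) * c = s * k := by
    have : ((D + (s - 1) * c : ℕ) : ℂ) = ((s * k : ℕ) : ℂ) := by rw [hk]
    push_cast [Nat.cast_sub hs0] at this
    exact this
  rw [h2]
  field_simp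

end Cfsg.Agent.Lib.Helper4.SzDeg
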