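import Cfsg.Agent.Lib.Helper4.SzDeg.IntegC

/-! Integration step of S4775: the axioms `Ax` imply the degree facts. -/

set_option autoImplicit false
open Cfsg

namespace Cfsg.Agent.Lib.Helper4.SzDeg

open scoped ComplexConjugate

variable {G Ω : Type*} [Group G] [Fintype G] [MulAction G Ω] [Fintype Ω] {q r : ℕ} {a b : Ω}
  {Q Z H Ap Am : Subgroup G}

/-- the permutation character minus one -/
noncomputable def stFun (G Ω : Type*) [Group G] [MulAction G Ω] : G → ℂ :=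
  (fun g => (Nat.card (MulAction.fixedBy Ω g) : ℂ)) - fun _ => (1 : ℂ)

theorem Ax.st_irr (ax : Ax G Ω q r a b Q Z H Ap Am) : IsIrrCharacter G (stFun G Ω) := by
  have : Nonempty Ω := ⟨a⟩
  have h2 := ax.zas.2.1
  have : Nonempty (Fin 2 ↪ Ω) := by
    refine ⟨⟨![a, b], ?_⟩⟩
    intro i j hij
    fin_cases i <;> fin_cases j <;> simp_all [ax.hab, ax.hab.symm]
  exact Helper33.x_irr_of_two_trans Ω ax.pretrans h2

theorem Ax.st_one (ax : Ax G Ω q r a b Q Z H Ap Am) : stFun G Ω 1 = ((q ^ 2 : ℕ) : ℂ) := by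
  have h : Nat.card (MulAction.fixedBy Ω (1 : G)) = q ^ 2 + 1 := by
    rw [MulAction.fixedBy_one_eq_univ, ← ax.cardΩ, ← Nat.card_eq_fintype_card]
    exact Nat.card_congr (Equiv.Set.univ Ω)
  show (Nat.card (MulAction.fixedBy Ω (1 : G)) : ℂ) - 1 = _
  rw [h]; push_cast; ring

theorem Ax.st_Q (ax : Ax G Ω q r a b Q Z H Ap Am) (u : G) (hu : u ∈ Q) (hu1 : u ≠ 1) :
    stFun G Ω u = ((0 : ℕ) : ℂ) := by
  have h : MulAction.fixedBy Ω u = {a} := by
    ext c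
    simp only [MulAction.mem_fixedBy, Set.mem_singleton_iff]
    exact ⟨fun hc => ax.hQfix u hu hu1 c hc, fun hc => hc ▸ ax.hQa hu⟩
  simp [stFun, h]

theorem st_nofix (g : G) (hg : ∀ c : Ω, g • c ≠ c) : stFun G Ω g = -1 := by
  have h : MulAction.fixedBy Ω g = ∅ := by
    ext c
    simp only [MulAction.mem_fixedBy, Set.mem_empty_iff_false, iff_false]
    exact hg c
  simp [stFun, h]


set_option maxHeartbeats 1000000 in
theorem deg_facts (ax : Ax G Ω q r a b Q Z H Ap Am) :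
    (∀ d ∈ charDegrees G, d ∣ q ^ 2 * (q ^ 2 + 1) * (q - 1)) ∧ q ^ 2 ∈ charDegrees G ∧
    q ^ 2 + 1 ∈ charDegrees G ∧ (∃ d ∈ charDegrees G, 2 * (q - 1) ∣ d) ∧
    (∃ d ∈ charDegrees G, (q + r + 1) * (q - 1) ∣ d) ∧
    (∃ d ∈ charDegrees G, (q + 1 - r) * (q - 1) ∣ d) ∧
    ∀ d ∈ charDegrees G, 2 ∣ d → Nat.Coprime d (q ^ 2 + 1) := by
  classical
  have instQ : Fintype Q := Fintype.ofFinite Q
  have instZ : Fintype Z := Fintype.ofFinite Z
  have hsimple := ax.simple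
  have hq8 := ax.q8
  have hrq := ax.rq
  have hr0 := ax.hr0
  obtain ⟨t, ht⟩ : ∃ t, q = t + 1 := ⟨q - 1, by omega⟩
  have hq1 : q - 1 = t := by omega
  have hchar : ∀ χ : IrrCharacter G, IsCharacter G (χ : G → ℂ) := fun χ =>
    Helper74.IsIrrCharacter.isCharacter χ.2
  have hdeg : ∀ χ : IrrCharacter G, (χ : G → ℂ) 1 = (charDegree (χ : G → ℂ) : ℂ) := fun χ =>
    (Helper74.IsCharacter.charDegree_eq (hchar χ)).symm
  have hA : ∀ χ : IrrCharacter G, ∃ n : ℕ, (Nat.card Q : ℂ)⁻¹ * ∑ x : Q, (χ : G → ℂ) x = n :=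
    fun χ => avg_nat Q (hchar χ)
  have hL : ∀ χ : IrrCharacter G, ∃ n : ℕ, (Nat.card Z : ℂ)⁻¹ * ∑ x : Z, (χ : G → ℂ) x = n :=
    fun χ => avg_nat Z (hchar χ)
  choose aN haN using hA
  choose lN hlN using hL
  have hQ0 : (Nat.card Q : ℂ) ≠ 0 := by
    rw [ax.cardQ]; exact_mod_cast (by positivity : q ^ 2 ≠ 0)
  have hZ0 : (Nat.card Z : ℂ) ≠ 0 := by
    rw [ax.cardZ]; exact_mod_cast (by omega : q ≠ 0)
  -- the two tori
  set Np := Finset.univ.filter (fun χ : IrrCharacter G => ∃ x ∈ Ap, x ≠ 1 ∧ (χ : G → ℂ) x ≠ 0)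
    with hNp
  set Nm := Finset.univ.filter (fun χ : IrrCharacter G => ∃ x ∈ Am, x ≠ 1 ∧ (χ : G → ℂ) x ≠ 0)
    with hNm
  obtain ⟨s4, hs4⟩ := ax.hr4
  obtain ⟨q2, hq2⟩ := ax.even
  have hoddP : Odd (q + r + 1) := ⟨q2 + 2 * s4, by omega⟩
  have hoddM : Odd (q + 1 - r) := ⟨q2 - 2 * s4, by omega⟩
  have hTp := torus_pack Ap (q + r + 1) ax.cardAp hoddP (by omega) ax.commAp ax.centAp ax.normAp
  have hTm := torus_pack Am (q + 1 - r) ax.cardAm hoddM (by omega) ax.commAm ax.centAm ax.normAm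
  have hfixP : ∀ x ∈ Ap, x ≠ 1 → ∀ c : Ω, x • c ≠ c := fun x hx hx1 c =>
    ax.no_fix Ap ax.cardAp ax.copP hx hx1 c
  have hfixM : ∀ x ∈ Am, x ≠ 1 → ∀ c : Ω, x • c ≠ c := fun x hx hx1 c =>
    ax.no_fix Am ax.cardAm ax.copM hx hx1 c
  obtain ⟨xp, hxp, hxp1⟩ := Ax.exists_ne_one Ap (by rw [ax.cardAp]; omega)
  obtain ⟨xm, hxm, hxm1⟩ := Ax.exists_ne_one Am (by rw [ax.cardAm]; omega)
  -- the trivial and the Steinberg character
  set o : IrrCharacter G := ⟨fun _ => 1, Helper74.isIrrCharacter_one⟩ with ho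
  set st : IrrCharacter G := ⟨stFun G Ω, ax.st_irr⟩ with hst
  have hcast : ∀ {x y : ℕ}, (x : ℂ) = (y : ℂ) → x = y := fun h => by exact_mod_cast h
  have hZQ := ax.ZQ
  -- characters of type (D, c)
  have htype : ∀ (χ : IrrCharacter G) (D c k k' : ℕ), (χ : G → ℂ) 1 = D →
      (∀ u ∈ Q, u ≠ 1 → (χ : G → ℂ) u = c) → D + (q ^ 2 - 1) * c = q ^ 2 * k →
      D + (q - 1) * c = q * k' → charDegree (χ : G → ℂ) = D ∧ aN χ = k ∧ lN χ = k' := by
    intro χ D c k k' h1 hc hk hk'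
    refine ⟨hcast ((hdeg χ).symm.trans h1), hcast ?_, hcast ?_⟩
    · rw [← haN χ]
      exact avg_of_type Q Q le_rfl (q ^ 2) ax.cardQ (by positivity) _ D c k h1 hc hk
    · rw [← hlN χ]
      exact avg_of_type Z Q hZQ q ax.cardZ (by omega) _ D c k' h1 hc hk'
  have ho3 : charDegree (o : G → ℂ) = 1 ∧ aN o = 1 ∧ lN o = 1 := by
    apply htype o 1 1 1 1 (by simp [ho]) (fun _ _ _ => by simp [ho])
    · have : 1 ≤ q ^ 2 := Nat.one_le_pow _ _ (by omega)
      omega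
    · omega
  have hst3 : charDegree (st : G → ℂ) = q ^ 2 ∧ aN st = 1 ∧ lN st = q := by
    apply htype st (q ^ 2) 0 1 q ax.st_one (fun u hu hu1 => ax.st_Q u hu hu1)
    · ring
    · ring
  have hq21 : 1 ≤ q ^ 2 := Nat.one_le_pow _ _ (by omega)
  -- classification of the principal series
  have hPS : ∀ χ : IrrCharacter G, aN χ ≠ 0 → χ = o ∨ χ = st ∨
      (charDegree (χ : G → ℂ) = q ^ 2 + 1 ∧ aN χ = 2 ∧ lN χ = q + 1 ∧ χ ∉ Np ∧ χ ∉ Nm) := by
    intro χ hχ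
    have hsum : ∑ x : Q, (χ : G → ℂ) x ≠ 0 := by
      intro h0
      apply hχ
      apply hcast
      rw [← haN χ, h0]; simp
    have hoddH : Odd (Nat.card ↥(MulAction.stabilizer G a ⊓ MulAction.stabilizer G b : Subgroup G)) := by
      rw [← ax.hH, ax.cardH]; exact ⟨q2 - 1, by omega⟩
    have hlt : Nat.card ↥(MulAction.stabilizer G a ⊓ MulAction.stabilizer G b : Subgroup G)
        < Fintype.card Ω - 2 := by
      rw [← ax.hH, ax.cardH, ax.cardΩ]
      have : q * 8 ≤ q ^ 2 := by nlinarith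
      omega
    rcases principal_series ax.zas ax.hab hoddH hlt Q ax.hQa (by rw [ax.cardQ, ax.cardΩ]) ax.hQfix
      ax.hQn ax.hBab χ hsum with h | h | ⟨h1, h2, h3⟩
    · left; exact Subtype.ext h
    · right; left; exact Subtype.ext h
    · right; right
      obtain ⟨e1, e2, e3⟩ := htype χ (q ^ 2 + 1) 1 2 (q + 1) (by rw [h1, ax.cardΩ])
        (fun u hu hu1 => by rw [h2 u hu hu1]; simp) (by omega)
        (by rw [hq1, ht]; ring)
      refine ⟨e1, e2, e3, ?_, ?_⟩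
      · intro hmem
        obtain ⟨x, hx, hx1, hx0⟩ := (Finset.mem_filter.1 hmem).2
        exact hx0 (h3 x (hfixP x hx hx1))
      · intro hmem
        obtain ⟨x, hx, hx1, hx0⟩ := (Finset.mem_filter.1 hmem).2
        exact hx0 (h3 x (hfixM x hx hx1))
  have hle : ∀ χ, aN χ ≤ lN χ := by
    intro χ
    by_cases h : aN χ = 0
    · omega
    · rcases hPS χ h with h | h | ⟨_, e2, e3, _⟩
      · rw [h, ho3.2.1, ho3.2.2]
      · rw [h, hst3.2.1, hst3.2.2]; omega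
      · omega
  set L : IrrCharacter G → ℕ := fun χ => lN χ - aN χ with hLdef
  have hLc : ∀ χ : IrrCharacter G, (L χ : ℂ) = (Nat.card Z : ℂ)⁻¹ * ∑ x : Z, (χ : G → ℂ) x
      - (Nat.card Q : ℂ)⁻¹ * ∑ x : Q, (χ : G → ℂ) x := by
    intro χ
    rw [hlN, haN, hLdef]
    simp only
    rw [Nat.cast_sub (hle χ)]
  have hsq : ∑ χ : IrrCharacter G, charDegree (χ : G → ℂ) ^ 2 = q ^ 2 * (q ^ 2 + 1) * (q - 1) := by
    rw [Helper80.sum_sq_charDegree, ax.cardG]
  have hindQ : Q.index = (q - 1) * (q ^ 2 + 1) := by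
    have := Subgroup.card_mul_index Q
    rw [ax.cardQ, ax.cardG] at this
    apply Nat.eq_of_mul_eq_mul_left (by positivity : 0 < q ^ 2)
    rw [this]; ring
  have hindZ : Z.index = q * ((q - 1) * (q ^ 2 + 1)) := by
    have := Subgroup.card_mul_index Z
    rw [ax.cardZ, ax.cardG] at this
    apply Nat.eq_of_mul_eq_mul_left (by omega : 0 < q)
    rw [this]; ring
  have had : ∑ χ : IrrCharacter G, aN χ * charDegree (χ : G → ℂ) = (q - 1) * (q ^ 2 + 1) := by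
    apply hcast
    rw [← hindQ, ← sum_avg_mul_deg Q]
    push_cast
    refine Finset.sum_congr rfl fun χ _ => ?_
    rw [haN, hdeg]
  have hld : ∑ χ : IrrCharacter G, lN χ * charDegree (χ : G → ℂ) = q * ((q - 1) * (q ^ 2 + 1)) := by
    apply hcast
    rw [← hindZ, ← sum_avg_mul_deg Z]
    push_cast
    refine Finset.sum_congr rfl fun χ _ => ?_
    rw [hlN, hdeg]
  have hLd : ∑ χ : IrrCharacter G, L χ * charDegree (χ : G → ℂ) = (q - 1) ^ 2 * (q ^ 2 + 1) := by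
    have h1 : ∑ χ : IrrCharacter G, L χ * charDegree (χ : G → ℂ)
        + ∑ χ : IrrCharacter G, aN χ * charDegree (χ : G → ℂ)
        = ∑ χ : IrrCharacter G, lN χ * charDegree (χ : G → ℂ) := by
      rw [← Finset.sum_add_distrib]
      refine Finset.sum_congr rfl fun χ _ => ?_
      rw [← add_mul]
      congr 1
      have := hle χ
      simp only [hLdef]
      omega
    rw [had, hld, hq1] at h1
    rw [hq1]
    have h2 : ∀ w : ℕ, q * (t * w) = t ^ 2 * w + t * w := by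
      intro w
      rw [ht]
      ring
    rw [h2] at h1
    omega
  have hnorm := ax.normalizer_eq
  have hLL : ∑ χ : IrrCharacter G, L χ ^ 2 = q * (q - 1) ^ 2 := by
    apply hcast
    rw [← sum_L_sq Q Z q (by omega) ax.cardG ax.cardQ ax.cardZ hZQ
      (by rw [hnorm]; exact ax.card_stab a)
      (fun g x hx hx1 hg => by rw [hnorm]; exact ax.ti g x hx hx1 hg)
      (fun g hg x hx => ax.Z_inv g (by rwa [hnorm] at hg) x hx)]
    push_cast
    refine Finset.sum_congr rfl fun χ _ => ?_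
    rw [hLc]
  have hR : ∀ χ : IrrCharacter G, aN χ = 0 → ∃ b d : ℕ, charDegree (χ : G → ℂ) = (q - 1) * d ∧
      L χ = (q - 1) * b ∧ Even (b + d) := by
    intro χ h0
    have hsum : ∑ x : Q, (χ : G → ℂ) x = 0 := by
      have := haN χ
      rw [h0] at this
      simpa [hQ0] using this
    obtain ⟨b', d, h1, h2, h3⟩ := frob_two_kernel Q H Z
      (fun h hh x hx => ax.hQn h (ax.HB hh) x hx) ax.disj ax.hfpf ax.hQ2 ax.hZ χ (hchar χ) hsum
    refine ⟨b', d, ?_, ?_, h3⟩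
    · apply hcast; rw [← hdeg, h1, ax.cardH]
    · have : lN χ = (q - 1) * b' := by
        apply hcast
        rw [← hlN, h2, ax.cardH]
        push_cast
        field_simp
      simp only [hLdef]
      omega
  have hcard : q + 3 ≤ Fintype.card (IrrCharacter G) := by
    rw [← Nat.card_eq_fintype_card, Helper3.card_irrCharacter]; exact ax.classes
  have hdeg0 : ∀ χ : IrrCharacter G, 0 < charDegree (χ : G → ℂ) := by
    intro χ
    rcases Nat.eq_zero_or_pos (charDegree (χ : G → ℂ)) with h | h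
    · exfalso
      apply Helper3.IsIrrCharacter.apply_one_ne_zero χ.2
      rw [hdeg, h]; simp
    · exact h
  have host : o ≠ st := by
    intro h
    have h1 := ho3.1
    rw [h, hst3.1] at h1
    nlinarith
  have hP : ∀ χ : IrrCharacter G, aN χ ≠ 0 → χ = o ∨ χ = st ∨
      (charDegree (χ : G → ℂ) = q ^ 2 + 1 ∧ aN χ = 2 ∧ L χ = q - 1 ∧ χ ∉ Np ∧ χ ∉ Nm) := by
    intro χ hχ
    rcases hPS χ hχ with h | h | ⟨e1, e2, e3, e4, e5⟩
    · exact Or.inl h
    · exact Or.inr (Or.inl h)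
    · refine Or.inr (Or.inr ⟨e1, e2, ?_, e4, e5⟩)
      simp only [hLdef]; omega
  have hoNp : o ∈ Np := Finset.mem_filter.2 ⟨Finset.mem_univ _, xp, hxp, hxp1, by simp [ho]⟩
  have hoNm : o ∈ Nm := Finset.mem_filter.2 ⟨Finset.mem_univ _, xm, hxm, hxm1, by simp [ho]⟩
  have hstNp : st ∈ Np := Finset.mem_filter.2 ⟨Finset.mem_univ _, xp, hxp, hxp1, by
    show stFun G Ω xp ≠ 0
    rw [st_nofix xp (hfixP xp hxp hxp1)]; simp⟩
  have hstNm : st ∈ Nm := Finset.mem_filter.2 ⟨Finset.mem_univ _, xm, hxm, hxm1, by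
    show stFun G Ω xm ≠ 0
    rw [st_nofix xm (hfixM xm hxm hxm1)]; simp⟩
  obtain ⟨c1, c2, c3, c4, c5⟩ := core q r (fun χ : IrrCharacter G => charDegree (χ : G → ℂ)) aN L
    Np Nm o st ax.hr ax.hr4 ax.hr0 hcard hdeg0 hsq hLL hLd had host
    ⟨ho3.1, ho3.2.1, by simp only [hLdef]; omega⟩
    ⟨hst3.1, hst3.2.1, by simp only [hLdef]; omega⟩ hP hR
    hTp.1 hTp.2.1 hTp.2.2 hoNp hstNp hTm.1 hTm.2.1 hTm.2.2 hoNm hstNm
  refine ⟨?_, ⟨st, hst3.1⟩, ?_, ?_, ?_, ?_, ?_⟩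
  · rintro d ⟨χ, rfl⟩
    rw [← ax.cardG]
    exact Helper80.charDegree_dvd_card χ
  · obtain ⟨χ, hχ⟩ := c1
    exact ⟨χ, hχ⟩
  · obtain ⟨χ, hχ⟩ := c2
    exact ⟨_, ⟨χ, rfl⟩, hχ⟩
  · obtain ⟨χ, hχ⟩ := c3
    exact ⟨_, ⟨χ, rfl⟩, hχ⟩
  · obtain ⟨χ, hχ⟩ := c4
    exact ⟨_, ⟨χ, rfl⟩, hχ⟩
  · rintro d ⟨χ, rfl⟩ h2
    exact c5 χ h2

end Cfsg.Agent.Lib.Helper4.SzDeg
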