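import Cfsg.Agent.Lib.Helper37.Suzuki.Partition
import Cfsg.Agent.Lib.Helper37.Suzuki.Real
import Cfsg.Agent.Lib.Helper6.ClassCount

/-!
# The Suzuki group `Sz(q)` has at least `q + 3` conjugacy classes
-/

set_option autoImplicit false

namespace Cfsg.Agent.Lib.Helper4.SzDeg

open Cfsg.Agent.Lib.Helper37.Suz Cfsg.Agent.Lib.Helper37.TICount
open Finset

variable {F : Type*} [Field F] [Fintype F] {m : ℕ} [SzField F m]

omit [Fintype F] [SzField F m] in
theorem K_card_comm [Fintype (Cfsg.Sz F m)] [DecidableEq (Cfsg.Sz F m)] (g : Cfsg.Sz F m) :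
    (univ.filter (fun x : Cfsg.Sz F m => x * g = g * x)).card = Nat.card (Tor m g) := by
  symm
  apply Nat.subtype_card
  intro x
  rw [mem_filter, mem_Tor]
  simp

theorem K_card_Tor_H {g : Cfsg.Sz F m} (hg : g ∈ cl (Hsub F m)) :
    Nat.card (Tor m g) = Fintype.card F - 1 := by
  obtain ⟨x, hx⟩ := Tor_of_mem_cl_H hg
  rw [hx, card_map_conj, card_Hsub]

theorem K_card_Tor_X {x g : Cfsg.Sz F m} (hx : x ∈ XS m) (hg : g ∈ cl (Tor m x)) :
    Nat.card (Tor m g) = Nat.card (Tor m x) := by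
  obtain ⟨u, a, ha, h1, rfl⟩ := hg
  rw [Tor_conj_eq_map, card_map_conj, Tor_eq hx ha h1]

omit [Fintype F] [SzField F m] in
/-- the sum of the centraliser orders over a set on which they are constant -/
theorem K_sum_const [Fintype (Cfsg.Sz F m)] [DecidableEq (Cfsg.Sz F m)]
    (S : Set (Cfsg.Sz F m)) [DecidablePred (· ∈ S)] (c : ℕ)
    (h : ∀ g ∈ S, Nat.card (Tor m g) = c) :
    ∑ g ∈ univ.filter (· ∈ S), (univ.filter (fun x : Cfsg.Sz F m => x * g = g * x)).card
      = S.ncard * c := by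
  rw [Finset.sum_congr rfl (g := fun _ => c), Finset.sum_const, smul_eq_mul]
  · congr 1
    rw [← Set.ncard_coe_finset]
    congr 1
    ext g
    simp
  · intro g hg
    rw [K_card_comm]
    exact h g (mem_filter.1 hg).2

theorem K_OddT_conj {g : Cfsg.Sz F m} (x : Cfsg.Sz F m) (hg : OddT g) : OddT (x * g * x⁻¹) := by
  refine ⟨?_, ?_⟩
  · intro h
    apply hg.1
    have : g = x⁻¹ * (x * g * x⁻¹) * x := by group
    rw [this, h]; group
  · intro h
    apply hg.2
    have := conj_mem_cl h x⁻¹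
    have e : x⁻¹ * (x * g * x⁻¹) * x⁻¹⁻¹ = g := by group
    rwa [e] at this

/-- the number of classes of elements of odd order -/
theorem K_odd_classes (m : ℕ) [SzField F m] : Fintype.card F - 1 ≤
    Nat.card {C : ConjClasses (Cfsg.Sz F m) // ∀ g, ConjClasses.mk g = C → OddT g} := by
  classical
  have : Fintype (Cfsg.Sz F m) := Fintype.ofFinite _
  obtain ⟨x, -, hx, -, -, -⟩ := exists_tori (F := F) (m := m)
  obtain ⟨y, hy, hxy⟩ := exists_coprime hx
  have hadd := card_Tor_add hx hy hxy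
  have hodd := Cfsg.Agent.Lib.Helper6.ClassCount.sum_card_commute (G := Cfsg.Sz F m)
    (fun g => OddT g) (fun g x hg => K_OddT_conj x hg)
  set n := Nat.card {C : ConjClasses (Cfsg.Sz F m) // ∀ g, ConjClasses.mk g = C → OddT g}
  have hsub : (univ.filter (· ∈ cl (Hsub F m)) ∪ univ.filter (· ∈ cl (Tor m x))) ∪
      univ.filter (· ∈ cl (Tor m y)) ⊆ univ.filter (fun g : Cfsg.Sz F m => OddT g) := by
    intro g hg
    simp only [mem_union, mem_filter, mem_univ, true_and] at hg ⊢
    rcases hg with (h | h) | h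
    · exact OddT.of_cl_H h
    · exact OddT.of_XS (cl_Tor_subset hx h)
    · exact OddT.of_XS (cl_Tor_subset hy h)
  have hle := Finset.sum_le_sum_of_subset (f := fun g : Cfsg.Sz F m =>
    (univ.filter (fun x : Cfsg.Sz F m => x * g = g * x)).card) hsub
  rw [hodd, Finset.sum_union, Finset.sum_union, K_sum_const _ _ (fun g hg => K_card_Tor_H hg),
    K_sum_const _ _ (fun g hg => K_card_Tor_X hx hg),
    K_sum_const _ _ (fun g hg => K_card_Tor_X hy hg)] at hle
  · have h1 := card_cl (Hsub F m) (TI_H m)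
    rw [card_normalizer_H, card_Hsub, _root_.Nat.card_coe_set_eq] at h1
    have h2 := card_cl_Tor hx
    have h3 := card_cl_Tor hy
    rw [card_normalizer_Tor_eq hx] at h2
    rw [card_normalizer_Tor_eq hy] at h3
    have h8 := eight_le_card (F := F) m
    have hx3 := three_le_card_Tor hx
    have hy3 := three_le_card_Tor hy
    rw [← Nat.card_eq_fintype_card (α := Cfsg.Sz F m)] at hle
    set N := Nat.card (Cfsg.Sz F m)
    have hN : 0 < N := Nat.card_pos
    set cH := (cl (Hsub F m)).ncard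
    set cX := (cl (Tor m x)).ncard
    set cY := (cl (Tor m y)).ncard
    set e₁ := Nat.card (Tor m x)
    set e₂ := Nat.card (Tor m y)
    set q := Fintype.card F
    have k1 : N * (4 * (q - 1)) ≤ N * (4 * n) := by
      calc N * (4 * (q - 1)) = 2 * (N * (q - 1 - 1)) + N * (e₁ - 1) + N * (e₂ - 1) := by
            have : 4 * (q - 1) = 2 * (q - 1 - 1) + (e₁ - 1) + (e₂ - 1) := by omega
            rw [this]; ring
        _ = 4 * (cH * (q - 1) + cX * e₁ + cY * e₂) := by rw [← h1, ← h2, ← h3]; ring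
        _ ≤ 4 * (n * N) := Nat.mul_le_mul_left _ hle
        _ = N * (4 * n) := by ring
    have k2 := Nat.le_of_mul_le_mul_left k1 hN
    omega
  · rw [Finset.disjoint_left]
    intro g h1 h2
    simp only [mem_filter, mem_univ, true_and] at h1 h2
    exact (cl_Tor_subset hx h2).2.2 h1
  · rw [Finset.disjoint_left]
    intro g h1 h2
    simp only [mem_union, mem_filter, mem_univ, true_and] at h1 h2
    rcases h1 with h1 | h1
    · exact (cl_Tor_subset hy h2).2.2 h1
    · exact Set.disjoint_left.1 (disjoint_cl_of_coprime hxy) h1 h2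

theorem K_not_OddT_Q {g : Cfsg.Sz F m} (hg : g ∈ Qsub F m) : ¬ OddT g := by
  intro h
  exact h.2 (mem_cl_of_mem hg h.1)

theorem K_sq (m : ℕ) [SzField F m] : TS m (1 : F) 0 * TS m 1 0 = TS m 0 1 := by
  have hchar := charTwo (F := F) m
  rw [TS_mul]
  simp [add_self']

theorem K_z_ne (m : ℕ) [SzField F m] : TS m (0 : F) 1 ≠ 1 := by
  intro h
  rw [← TS_zero m] at h
  exact one_ne_zero (TS_injective m h).2

theorem K_z_sq (m : ℕ) [SzField F m] : TS m (0 : F) 1 * TS m 0 1 = 1 := by
  have hchar := charTwo (F := F) m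
  rw [TS_mul, ← TS_zero m]
  simp [add_self']

theorem card_classes_ge {F : Type*} [Field F] [Fintype F] (m : ℕ)
    [Cfsg.Agent.Lib.Helper37.Suz.SzField F m] :
    Fintype.card F + 3 ≤ Nat.card (ConjClasses (Cfsg.Sz F m)) := by
  classical
  have : Fintype (Cfsg.Sz F m) := Fintype.ofFinite _
  have hodd := K_odd_classes (F := F) m
  have h8 := eight_le_card (F := F) m
  rw [Nat.card_eq_fintype_card, Fintype.card_subtype] at hodd
  rw [Nat.card_eq_fintype_card, ← Finset.card_univ (α := ConjClasses (Cfsg.Sz F m)),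
    ← Finset.card_filter_add_card_filter_not
      (fun C : ConjClasses (Cfsg.Sz F m) => ∀ g, ConjClasses.mk g = C → OddT g)]
  set u : Cfsg.Sz F m := TS m 1 0 with hu
  set z : Cfsg.Sz F m := TS m 0 1 with hz
  have huu : u * u = z := K_sq m
  have hz1 : z ≠ 1 := K_z_ne m
  have hzz : z * z = 1 := K_z_sq m
  have hu1 : u ≠ 1 := by
    intro h
    rw [h, one_mul] at huu
    exact hz1 huu.symm
  have hui1 : u⁻¹ ≠ 1 := by
    intro h
    exact hu1 (inv_eq_one.1 h)
  have hone : ∀ g : Cfsg.Sz F m, g ≠ 1 → ConjClasses.mk (1 : Cfsg.Sz F m) ≠ ConjClasses.mk g := by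
    intro g hg h
    rw [ConjClasses.mk_eq_mk_iff_isConj, isConj_iff] at h
    obtain ⟨c, hc⟩ := h
    apply hg
    rw [← hc]; group
  have hzc : ∀ g : Cfsg.Sz F m, g * g ≠ 1 → ConjClasses.mk z ≠ ConjClasses.mk g := by
    intro g hg h
    rw [ConjClasses.mk_eq_mk_iff_isConj, isConj_iff] at h
    obtain ⟨c, hc⟩ := h
    apply hg
    rw [← hc]
    calc c * z * c⁻¹ * (c * z * c⁻¹) = c * (z * z) * c⁻¹ := by group
      _ = 1 := by rw [hzz]; group
  have huu1 : u * u ≠ 1 := by rw [huu]; exact hz1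
  have hui2 : u⁻¹ * u⁻¹ ≠ 1 := by
    intro h
    apply huu1
    have : u * u = (u⁻¹ * u⁻¹)⁻¹ := by rw [mul_inv_rev, inv_inv]
    rw [this, h, inv_one]
  have hreal : ConjClasses.mk u ≠ ConjClasses.mk u⁻¹ := by
    intro h
    rw [ConjClasses.mk_eq_mk_iff_isConj, isConj_iff] at h
    obtain ⟨c, hc⟩ := h
    exact not_real m (a := 1) (b := 0) one_ne_zero c.2 (congrArg Subtype.val hc)
  have h4 : 4 ≤ (univ.filter (fun C : ConjClasses (Cfsg.Sz F m) =>
      ¬ ∀ g, ConjClasses.mk g = C → OddT g)).card := by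
    have hs : ({ConjClasses.mk (1 : Cfsg.Sz F m), ConjClasses.mk z, ConjClasses.mk u,
        ConjClasses.mk u⁻¹} : Finset (ConjClasses (Cfsg.Sz F m))) ⊆
        univ.filter (fun C : ConjClasses (Cfsg.Sz F m) =>
          ¬ ∀ g, ConjClasses.mk g = C → OddT g) := by
      intro C hC
      simp only [mem_insert, mem_singleton] at hC
      rw [mem_filter]
      refine ⟨mem_univ _, ?_⟩
      rcases hC with rfl | rfl | rfl | rfl
      · exact fun h => (h 1 rfl).1 rfl
      · exact fun h => K_not_OddT_Q ⟨0, 1, rfl⟩ (h z rfl)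
      · exact fun h => K_not_OddT_Q ⟨1, 0, rfl⟩ (h u rfl)
      · exact fun h => K_not_OddT_Q (inv_mem ⟨1, 0, rfl⟩) (h u⁻¹ rfl)
    refine le_trans (le_of_eq ?_) (Finset.card_le_card hs)
    rw [Finset.card_insert_of_notMem, Finset.card_insert_of_notMem,
      Finset.card_insert_of_notMem, Finset.card_singleton]
    · simpa using hreal
    · simp only [mem_insert, mem_singleton, not_or]
      exact ⟨hzc u huu1, hzc u⁻¹ hui2⟩
    · simp only [mem_insert, mem_singleton, not_or]
      exact ⟨hone z hz1, hone u hu1, hone u⁻¹ hui1⟩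
  omega

end Cfsg.Agent.Lib.Helper4.SzDeg
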