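import Cfsg.Agent.Lib.Helper4.SzDeg.Ax
import Cfsg.Agent.Lib.Helper4.SzDeg.K
import Cfsg.Agent.S0327
import Cfsg.Agent.Lib.Helper37.Suzuki.Simple
import Cfsg.Agent.Lib.Helper37.Suzuki.Partition

/-!
# The Suzuki groups satisfy the axioms `Ax`
-/

set_option autoImplicit false
set_option linter.unusedSectionVars false

namespace Cfsg.Agent.Lib.Helper4.SzDeg

open Cfsg.Agent.Lib.Helper37.Suz Cfsg.Agent.Lib.Helper37.TICount
open scoped LinearAlgebra.Projectivization

variable {F : Type*} [Field F] [Fintype F] (m : ℕ) [SzField F m]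

/-- the point at infinity of the ovoid -/
def ptA : Cfsg.suzukiOvoid F m := ⟨inf, inf_mem m⟩
/-- the origin of the ovoid -/
def ptB : Cfsg.suzukiOvoid F m := ⟨pt m 0 0, pt_mem m 0 0⟩

theorem M_stabA {g : Cfsg.Sz F m} : g ∈ MulAction.stabilizer (Cfsg.Sz F m) (ptA (F := F) m) ↔
    g.1 • (inf : ℙ F (Fin 4 → F)) = inf := by
  rw [MulAction.mem_stabilizer_iff]
  constructor
  · intro h; exact congrArg Subtype.val h
  · intro h; exact Subtype.ext h

theorem M_stabB {g : Cfsg.Sz F m} : g ∈ MulAction.stabilizer (Cfsg.Sz F m) (ptB (F := F) m) ↔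
    g.1 • (pt m (0 : F) 0) = pt m 0 0 := by
  rw [MulAction.mem_stabilizer_iff]
  constructor
  · intro h; exact congrArg Subtype.val h
  · intro h; exact Subtype.ext h

theorem M_hab : ptA (F := F) m ≠ ptB m := by
  intro h
  exact pt_ne_inf m 0 0 (congrArg Subtype.val h).symm

theorem M_hH : Hsub F m = MulAction.stabilizer (Cfsg.Sz F m) (ptA (F := F) m) ⊓
    MulAction.stabilizer (Cfsg.Sz F m) (ptB (F := F) m) := by
  ext g
  rw [Subgroup.mem_inf, M_stabA, M_stabB, mem_Hsub]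
  constructor
  · rintro ⟨k, rfl⟩
    refine ⟨hh_smul_inf m k, ?_⟩
    show hh m k • pt m (0 : F) 0 = pt m 0 0
    rw [hh_smul_pt]; simp
  · rintro ⟨h1, h2⟩
    obtain ⟨k, hk⟩ := two_point_stab m g.2 h1 h2
    exact ⟨k, Subtype.ext hk⟩

theorem M_hQa : Qsub F m ≤ MulAction.stabilizer (Cfsg.Sz F m) (ptA (F := F) m) := by
  intro g hg
  rw [M_stabA]
  exact Q_le_Binf m hg

theorem M_hQfix : ∀ u ∈ Qsub F m, u ≠ 1 → ∀ c : Cfsg.suzukiOvoid F m, u • c = c → c = ptA m := by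
  rintro _ ⟨a, b, rfl⟩ h1 c hc
  apply Subtype.ext
  apply T_fix m (a := a) (b := b) _ c.2 (congrArg Subtype.val hc)
  rintro ⟨rfl, rfl⟩
  exact h1 (TS_zero m)

theorem M_hQn : ∀ x ∈ MulAction.stabilizer (Cfsg.Sz F m) (ptA (F := F) m), ∀ u ∈ Qsub F m,
    x * u * x⁻¹ ∈ Qsub F m := by
  intro x hx u hu
  have hx' : x ∈ Subgroup.normalizer (Qsub F m : Set (Cfsg.Sz F m)) := by
    rw [normalizer_Q, mem_Binf]
    exact (M_stabA m).1 hx
  exact (Subgroup.mem_normalizer_iff.1 hx' u).1 hu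

theorem M_decomp {x : Cfsg.Sz F m} (hx : x ∈ MulAction.stabilizer (Cfsg.Sz F m) (ptA (F := F) m)) :
    ∃ (a b : F) (k : Fˣ), x = TS m a b * hS m k := by
  obtain ⟨a, b, k, hk⟩ := inf_stab m x.2 ((M_stabA m).1 hx)
  exact ⟨a, b, k, Subtype.ext hk⟩

theorem M_hS_stab (k : Fˣ) : hS m k ∈ MulAction.stabilizer (Cfsg.Sz F m) (ptA (F := F) m) := by
  rw [M_stabA]
  exact hh_smul_inf m k

theorem M_hBab : ∀ x ∈ MulAction.stabilizer (Cfsg.Sz F m) (ptA (F := F) m),
    ∀ y ∈ MulAction.stabilizer (Cfsg.Sz F m) (ptA (F := F) m), x * y * x⁻¹ * y⁻¹ ∈ Qsub F m := by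
  intro x hx y hy
  obtain ⟨a, b, k, rfl⟩ := M_decomp m hx
  obtain ⟨c, d, l, rfl⟩ := M_decomp m hy
  have hcomm : hS m k * hS m l * (hS m k)⁻¹ = hS m l := by
    rw [← hS_mul, mul_comm, hS_mul, mul_assoc, mul_inv_cancel, mul_one]
  have e : TS m a b * hS m k * (TS m c d * hS m l) * (TS m a b * hS m k)⁻¹ * (TS m c d * hS m l)⁻¹
      = TS m a b * (hS m k * TS m c d * (hS m k)⁻¹) * (hS m l * (TS m a b)⁻¹ * (hS m l)⁻¹)
        * (TS m c d)⁻¹ := by
    calc TS m a b * hS m k * (TS m c d * hS m l) * (TS m a b * hS m k)⁻¹ * (TS m c d * hS m l)⁻¹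
        = TS m a b * (hS m k * TS m c d * (hS m k)⁻¹) * (hS m k * hS m l * (hS m k)⁻¹)
          * (TS m a b)⁻¹ * (hS m l)⁻¹ * (TS m c d)⁻¹ := by group
      _ = _ := by rw [hcomm]; group
  rw [e]
  have h1 : TS m a b ∈ Qsub F m := ⟨a, b, rfl⟩
  have h2 : TS m c d ∈ Qsub F m := ⟨c, d, rfl⟩
  exact mul_mem (mul_mem (mul_mem h1 (M_hQn m _ (M_hS_stab m k) _ h2))
    (M_hQn m _ (M_hS_stab m l) _ (inv_mem h1))) (inv_mem h2)

theorem M_cardZ : Nat.card (⁅Qsub F m, Qsub F m⁆ : Subgroup (Cfsg.Sz F m)) = Fintype.card F := by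
  rw [← Subgroup.map_subtype_commutator, Subgroup.card_map_of_injective (Subgroup.subtype_injective _),
    ← center_eq_commutator_Q, card_center_Q]

theorem M_hfpf : ∀ h ∈ Hsub F m, h ≠ 1 → ∀ k ∈ Qsub F m, h * k = k * h → k = 1 := by
  rintro _ ⟨l, rfl⟩ h1 _ ⟨a, b, rfl⟩ hc
  have hl : l ≠ 1 := by
    rintro rfl
    exact h1 (hS_one m)
  obtain ⟨l', hl'⟩ := centralizer_hh m hl (TS m a b).2 (congrArg Subtype.val hc)
  have h2 : T m a b * hh m 1 = T m 0 0 * hh m l' := by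
    rw [hh_one, mul_one, T_zero, one_mul]
    exact hl'
  obtain ⟨rfl, rfl, -⟩ := T_hh_injective m h2
  exact TS_zero m

theorem model_ax {F : Type*} [Field F] [Fintype F] (m : ℕ)
    [Cfsg.Agent.Lib.Helper37.Suz.SzField F m] [Fintype (Cfsg.Sz F m)]
    [Fintype (Cfsg.suzukiOvoid F m)] :
    ∃ (a b : Cfsg.suzukiOvoid F m) (Q Z H Ap Am : Subgroup (Cfsg.Sz F m)),
      Ax (Cfsg.Sz F m) (Cfsg.suzukiOvoid F m) (Fintype.card F) (2 ^ (m + 1)) a b Q Z H Ap Am := by
  obtain ⟨x, y, hx, hy, hcx, hcy⟩ := exists_tori (F := F) (m := m)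
  have hm : 1 ≤ m := SzField.hm F
  refine ⟨ptA m, ptB m, Qsub F m, ⁅Qsub F m, Qsub F m⁆, Hsub F m, Tor m x, Tor m y, ?_⟩
  exact
    { hr := s_sq (F := F) (m := m)
      hr4 := by
        have : (4 : ℕ) = 2 ^ 2 := by norm_num
        rw [this]
        exact pow_dvd_pow 2 (by omega)
      hr0 := by positivity
      zas := Cfsg.Agent.S0327.result hm (SzField.card (F := F) (m := m))
      simple := isSimpleGroup_Sz m
      hab := M_hab m
      cardΩ := by rw [← Nat.card_eq_fintype_card, card_ovoid]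
      cardG := card_Sz m
      hH := M_hH m
      cardH := card_Hsub m
      hQa := M_hQa m
      cardQ := card_Qsub m
      hQ2 := isPGroup_Qsub m
      hQfix := M_hQfix m
      hQn := M_hQn m
      hBab := M_hBab m
      hZ := rfl
      cardZ := M_cardZ m
      hfpf := M_hfpf m
      classes := card_classes_ge m
      cardAp := hcx
      cardAm := by omega
      commAp := fun a ha b hb => Tor_comm hx ha hb
      commAm := fun a ha b hb => Tor_comm hy ha hb
      centAp := fun a ha h1 g hg => by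
        rw [← Tor_eq hx ha h1]
        exact mem_Tor.2 hg
      centAm := fun a ha h1 g hg => by
        rw [← Tor_eq hy ha h1]
        exact mem_Tor.2 hg
      normAp := by rw [card_normalizer_Tor_eq hx, hcx]
      normAm := by
        rw [card_normalizer_Tor_eq hy]
        congr 1
        omega }

end Cfsg.Agent.Lib.Helper4.SzDeg
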